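import Mathlib
import Cfsg.Agent.Lib.FewCl.Elt

/-! Groups whose conjugacy classes have distinct sizes: rationality, centralisers in quotients, the class equation. -/

set_option autoImplicit false
set_option linter.unusedSectionVars false
set_option linter.style.haveILetI false

namespace CfsgLib.AH

open Subgroup CfsgLib.FewCl

/-- every element is conjugate to all generators of its cyclic group -/
def RatG (G : Type*) [Group G] : Prop := ∀ (x : G) (k : ℕ), k.Coprime (orderOf x) → IsConj x (x ^ k)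

/-- elements with centralisers of the same order are conjugate -/
def Dist (G : Type*) [Group G] : Prop := ∀ x y : G, cn x = cn y → IsConj x y

variable {G : Type*} [Group G] [Finite G] {H : Type*} [Group H]

omit [Finite G] in
theorem mem_c {x g : G} : g ∈ centralizer ({x} : Set G) ↔ g * x = x * g := by
  rw [mem_centralizer_singleton_iff]

theorem cent_pow {x : G} {k : ℕ} (hk : k.Coprime (orderOf x)) :
    centralizer ({x ^ k} : Set G) = centralizer ({x} : Set G) := by
  ext g
  rw [mem_c, mem_c]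
  refine ⟨fun h => ?_, fun h => ((show Commute g x from h).pow_right k).eq⟩
  obtain ⟨m, hm⟩ := exists_pow_eq_self_of_coprime hk
  have := (show Commute g (x ^ k) from h).pow_right m
  rw [hm] at this
  exact this.eq

theorem Dist.rat (h : Dist G) : RatG G := fun x _ hk => h _ _ (by rw [cn, cn, cent_pow hk])

theorem RatG.inv (h : RatG G) (x : G) : IsConj x x⁻¹ := by
  have h1 := orderOf_pos x
  have : x ^ (orderOf x - 1) = x⁻¹ := by
    rw [eq_inv_iff_mul_eq_one, ← pow_succ, Nat.sub_add_cancel h1, pow_orderOf_eq_one]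
  rw [← this]
  apply h
  obtain ⟨n, hn⟩ : ∃ n, orderOf x = n + 1 := ⟨_, (Nat.sub_add_cancel h1).symm⟩
  rw [hn]; simp

theorem RatG.of_surj (h : RatG G) (f : G →* H) (hf : Function.Surjective f) : RatG H := by
  intro y k hk
  obtain ⟨x, rfl⟩ := hf y
  haveI : NeZero (orderOf x) := ⟨(orderOf_pos x).ne'⟩
  obtain ⟨u, hu⟩ := ZMod.unitsMap_surjective (orderOf_map_dvd f x) (ZMod.unitOfCoprime k hk)
  have h1 := f.map_isConj (h x (u : ZMod (orderOf x)).val (ZMod.val_coe_unit_coprime u))
  have h2 : (f x) ^ (u : ZMod (orderOf x)).val = f x ^ k := by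
    rw [pow_eq_pow_iff_modEq, ← ZMod.natCast_eq_natCast_iff]
    have := congrArg Units.val hu
    simpa [ZMod.unitsMap_def] using this
  rwa [map_pow, h2] at h1

omit [Finite G] in
theorem sep {a b a' b' : G} {m n : ℕ} (hmn : m.Coprime n) (h : Commute a b) (h' : Commute a' b')
    (ha : a ^ m = 1) (ha' : a' ^ m = 1) (hb : b ^ n = 1) (hb' : b' ^ n = 1) (e : a * b = a' * b') :
    a = a' ∧ b = b' := by
  obtain ⟨k, hk1, hk2⟩ := Nat.chineseRemainder hmn 1 0
  have e1 : ∀ {x : G}, x ^ m = 1 → x ^ k = x := fun {x} hx => by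
    rw [pow_eq_pow_of_modEq hk1 hx, pow_one]
  have e2 : ∀ {x : G}, x ^ n = 1 → x ^ k = 1 := fun {x} hx => by
    rw [pow_eq_pow_of_modEq hk2 hx, pow_zero]
  have h1 := congrArg (· ^ k) e
  simp only [h.mul_pow, h'.mul_pow, e1 ha, e1 ha', e2 hb, e2 hb', mul_one] at h1
  subst h1
  exact ⟨rfl, mul_left_cancel e⟩

/-- rationality of a product of commuting elements of coprime orders -/
theorem RatG.cpl (h : RatG G) {c s : G} (hc : Commute c s) (ho : (orderOf c).Coprime (orderOf s)) {k : ℕ}
    (hk : k.Coprime (orderOf s)) : ∃ g : G, g * c * g⁻¹ = c ∧ g * s * g⁻¹ = s ^ k := by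
  obtain ⟨m, hm1, hm2⟩ := Nat.chineseRemainder ho 1 k
  have h1 : m.Coprime (orderOf (c * s)) := by
    rw [hc.orderOf_mul_eq_mul_orderOf_of_coprime ho]
    refine Nat.Coprime.mul_right ?_ ?_
    · have := hm1.gcd_eq; simpa using this
    · have := hm2.gcd_eq; rw [Nat.Coprime, this]; exact hk
  obtain ⟨g, hg⟩ := isConj_iff.1 (h _ m h1)
  rw [hc.mul_pow, pow_eq_pow_of_modEq hm1 (pow_orderOf_eq_one c), pow_eq_pow_of_modEq hm2 (pow_orderOf_eq_one s),
    pow_one] at hg
  refine ⟨g, sep ho (m := orderOf c) (n := orderOf s) ?_ (hc.pow_right k) ?_ (pow_orderOf_eq_one c) ?_ ?_ ?_⟩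
  · exact (hc.map (MulAut.conj g))
  · rw [conj_pow, pow_orderOf_eq_one]; group
  · rw [conj_pow, pow_orderOf_eq_one]; group
  · rw [← pow_mul, mul_comm, pow_mul, pow_orderOf_eq_one, one_pow]
  · rw [← hg]; group

/-- centralisers in quotients -/
theorem cn_mul_le (f : G →* H) (hf : Function.Surjective f) {x y : G} (hy : f y = 1) (hz : ∀ g, g * y = y * g)
    (ho : (orderOf x).Coprime (orderOf y)) : cn (f x) * orderOf y ≤ cn x := by
  haveI : Finite H := Finite.of_surjective f hf
  set D := (centralizer ({f x} : Set H)).comap f with hD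
  set C := centralizer ({x} : Set G) with hC
  have hCD : C ≤ D := fun g hg => by
    rw [hD, mem_comap, mem_c, ← map_mul, ← map_mul, mem_c.1 hg]
  have hzz : ∀ z : zpowers y, ∀ g : G, g * z = z * g := fun z g => by
    obtain ⟨i, hi⟩ := mem_zpowers_iff.1 z.2
    rw [← hi]; exact ((show Commute g y from hz g).zpow_right i).eq
  let ψ : (D ⧸ C.subgroupOf D) × zpowers y → f.ker := fun q => ⟨(q.1.out : G) * x * (q.1.out : G)⁻¹ * x⁻¹ * q.2, by
    have h1 := mem_c.1 (mem_comap.1 q.1.out.2)
    have h2 : f q.2 = 1 := by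
      obtain ⟨i, hi⟩ := mem_zpowers_iff.1 q.2.2
      rw [← hi, map_zpow, hy, one_zpow]
    simp [MonoidHom.mem_ker, h1, h2]⟩
  have hψ : Function.Injective ψ := by
    rintro ⟨a, z⟩ ⟨b, w⟩ e
    have e1 : (a.out : G) * x * (a.out : G)⁻¹ * x⁻¹ * z = (b.out : G) * x * (b.out : G)⁻¹ * x⁻¹ * w :=
      congrArg Subtype.val e
    have e2 : (a.out : G) * x * (a.out : G)⁻¹ * z = (b.out : G) * x * (b.out : G)⁻¹ * w := by
      have := congrArg (· * x) e1
      simp only [mul_assoc, ← hzz z x, ← hzz w x, inv_mul_cancel_left] at this ⊢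
      exact this
    have p1 : ∀ g : G, (g * x * g⁻¹) ^ orderOf x = 1 := fun g => by rw [conj_pow, pow_orderOf_eq_one]; group
    have p2 : ∀ z : zpowers y, (z : G) ^ orderOf y = 1 := fun z => by
      rw [← Nat.card_zpowers]; exact_mod_cast pow_card_eq_one' (x := z)
    obtain ⟨h1, h2⟩ := sep ho (hzz z _) (hzz w _) (p1 _) (p1 _) (p2 z) (p2 w) e2
    refine Prod.ext ?_ (Subtype.ext h2)
    rw [← a.out_eq, ← b.out_eq]
    refine QuotientGroup.eq.2 (mem_subgroupOf.2 (mem_c.2 ?_))
    push_cast
    calc (a.out : G)⁻¹ * b.out * x = (a.out : G)⁻¹ * (b.out * x * (b.out : G)⁻¹) * b.out := by group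
      _ = _ := by rw [← h1]; group
  have h1 := Nat.card_le_card_of_injective ψ hψ
  rw [Nat.card_prod, Nat.card_zpowers] at h1
  have h2 : Nat.card (D ⧸ C.subgroupOf D) * cn x = Nat.card D := by
    rw [card_eq_card_quotient_mul_card_subgroup (C.subgroupOf D),
      Nat.card_congr (subgroupOfEquivOfLe hCD).toEquiv]
  have h3 : Nat.card D = Nat.card f.ker * cn (f x) := by
    have a1 := D.card_mul_index
    have a2 := (centralizer ({f x} : Set H)).card_mul_index
    have a3 := f.ker.card_mul_index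
    rw [index_ker, f.range_eq_top_of_surjective hf, card_top] at a3
    rw [hD, index_comap_of_surjective _ hf] at a1
    apply Nat.eq_of_mul_eq_mul_right (Nat.pos_of_ne_zero (centralizer ({f x} : Set H)).index_ne_zero_of_finite)
    rw [a1, mul_assoc, a2, a3]
  apply Nat.le_of_mul_le_mul_left _ (Nat.card_pos (α := f.ker))
  calc _ = Nat.card (D ⧸ C.subgroupOf D) * orderOf y * cn x := by rw [← mul_assoc, ← h3, ← h2]; ring
    _ ≤ _ := Nat.mul_le_mul_right _ h1

theorem cn_le (f : G →* H) (hf : Function.Surjective f) (x : G) : cn (f x) ≤ cn x := by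
  simpa using cn_mul_le f hf (x := x) (y := 1) (map_one f) (by simp) (by simp)

theorem RatG.dvd (h : RatG G) (g : G) : orderOf g * (orderOf g).totient ∣ Nat.card G := by
  set Z := zpowers g
  have hs : Function.Surjective Z.normalizerMonoidHom := by
    intro σ
    obtain ⟨k, hk⟩ := (mem_powers_iff_mem_zpowers.2 (σ ⟨g, mem_zpowers g⟩).2)
    have ho : orderOf (g ^ k) = orderOf g := by
      simp only at hk
      rw [hk, orderOf_coe, σ.orderOf_eq, orderOf_mk]
    have hk' : k.Coprime (orderOf g) := by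
      rw [orderOf_pow] at ho
      rcases (Nat.div_eq_self.1 ho) with h | h
      · exact absurd h (orderOf_pos g).ne'
      · exact Nat.coprime_comm.1 h
    obtain ⟨c, hc⟩ := isConj_iff.1 (h g k hk')
    have hN : c ∈ normalizer (Z : Set G) := by
      refine mem_normalizer_fintype fun z hz => ?_
      obtain ⟨i, rfl⟩ := mem_zpowers_iff.1 hz
      rw [← conj_zpow, hc]; exact zpow_mem (pow_mem (mem_zpowers g) _) _
    refine ⟨⟨c, hN⟩, MulEquiv.ext fun z => ?_⟩
    obtain ⟨i, hi⟩ := mem_zpowers_iff.1 z.2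
    have : z = (⟨g, mem_zpowers g⟩ : Z) ^ i := Subtype.ext hi.symm
    rw [this, map_zpow, map_zpow]
    congr 1
    exact Subtype.ext (hc.trans hk)
  have a1 := Z.normalizerMonoidHom.ker.card_mul_index
  rw [index_ker, MonoidHom.range_eq_top_of_surjective _ hs, card_top, IsCyclic.card_mulAut, Nat.card_zpowers] at a1
  refine dvd_trans ?_ (a1 ▸ card_subgroup_dvd_card (normalizer (Z : Set G)))
  apply Nat.mul_dvd_mul_right
  have hg : (⟨g, le_normalizer (mem_zpowers g)⟩ : normalizer (Z : Set G)) ∈ Z.normalizerMonoidHom.ker := by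
    rw [normalizerMonoidHom_ker, mem_subgroupOf, mem_centralizer_iff]
    intro z hz
    obtain ⟨i, rfl⟩ := mem_zpowers_iff.1 hz
    exact ((Commute.refl g).zpow_left i).eq
  simpa using orderOf_dvd_natCard (⟨_, hg⟩ : Z.normalizerMonoidHom.ker)

/-- the class equation for distinct centraliser orders -/
theorem Dist.mass (h : Dist G) : ∃ N : Finset ℕ, (∀ n, n ∈ N ↔ ∃ x : G, cn x = n) ∧ ∑ n ∈ N, (1 : ℚ) / n = 1 := by
  classical
  haveI := Fintype.ofFinite G
  refine ⟨Finset.univ.image fun C : ConjClasses G => cn C.out, fun n => ?_, ?_⟩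
  · simp only [Finset.mem_image, Finset.mem_univ, true_and]
    refine ⟨fun ⟨C, hC⟩ => ⟨_, hC⟩, fun ⟨x, hx⟩ => ⟨ConjClasses.mk x, ?_⟩⟩
    rw [← hx]
    exact cn_conj (ConjClasses.mk_eq_mk_iff_isConj.1 (ConjClasses.mk x).out_eq)
  · rw [Finset.sum_image fun C _ D _ e => by
      rw [← show ConjClasses.mk C.out = C from C.out_eq, ← show ConjClasses.mk D.out = D from D.out_eq]
      exact ConjClasses.mk_eq_mk_iff_isConj.2 (h _ _ e)]
    have h1 := card_cls (G := G) fun _ => True
    simp only [Finset.filter_true, Finset.card_univ] at h1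
    have h0 : (Nat.card G : ℚ) ≠ 0 := by exact_mod_cast Nat.card_pos.ne'
    apply mul_left_cancel₀ h0
    rw [Finset.mul_sum, mul_one]
    conv_rhs => rw [Nat.card_eq_fintype_card, h1]
    push_cast
    refine Finset.sum_congr (by congr) fun C _ => ?_
    rw [Nat.cast_div (cn_dvd _) (by exact_mod_cast (cn_pos _).ne'), mul_one_div]

theorem Dist.cn_ne (h : Dist G) {x : G} (hx : x ≠ 1) : cn x ≠ Nat.card G := fun e => by
  have : cn (1 : G) = Nat.card G := by
    rw [cn, show centralizer ({1} : Set G) = ⊤ from eq_top_iff.2 fun g _ => mem_c.2 (by simp), card_top]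
  exact hx (isConj_one_right.1 (h _ _ (this.trans e.symm)))

omit [Finite G] in
theorem cn_one : cn (1 : G) = Nat.card G := by
  rw [cn, show centralizer ({1} : Set G) = ⊤ from eq_top_iff.2 fun g _ => mem_c.2 (by simp), card_top]

end CfsgLib.AH
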