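import Mathlib
import Cfsg.Agent.Lib.AH.Defs
import Cfsg.Agent.Lib.Core.Cores
import Cfsg.Agent.Lib.Core.MinNormal

/-! In a solvable rational group the Sylow `p`-subgroups for `p > 3` are normal. -/

set_option autoImplicit false
set_option linter.unusedSectionVars false
set_option linter.style.haveILetI false

namespace CfsgLib.AH

open Subgroup CfsgLib.FewCl Finset

/-- a faithful coprime action of an elementary abelian group has a point with stabiliser of prime order -/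
theorem ms {W A : Type*} [Group W] [Finite W] [Nontrivial W] [CommGroup A] (hc : ∀ a b : W, a * b = b * a)
    (φ : W → A →* A) (h1 : ∀ a, φ 1 a = a) (hm : ∀ w w' a, φ (w * w') a = φ w (φ w' a))
    (hf : ∀ w, (∀ a, φ w a = a) → w = 1) {p q : ℕ} (hp : p.Prime) (hpq : p.Coprime q) (hW : ∀ w : W, w ^ p = 1)
    (hA : ∀ a : A, a ^ q = 1) : ∃ (a : A) (s : W), s ≠ 1 ∧ ∀ w, φ w a = a ↔ w ∈ zpowers s := by
  classical
  haveI := Fintype.ofFinite W
  haveI := Fact.mk hp
  let St : A → Subgroup W := fun a =>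
    { carrier := {w | φ w a = a}
      one_mem' := h1 a
      mul_mem' := fun {x y} hx hy => by
        simp only [Set.mem_ofPred_eq] at *
        rw [hm, hy, hx]
      inv_mem' := fun {x} hx => by
        simp only [Set.mem_ofPred_eq] at *
        rw [← hx, ← hm, inv_mul_cancel, h1, hx] }
  have hSt : ∀ a w, w ∈ St a ↔ φ w a = a := fun _ _ => Iff.rfl
  obtain ⟨a, ha, hmin⟩ := exists_minimalFor_of_wellFoundedLT (fun a => St a ≠ ⊥) St ⟨1, by
    obtain ⟨w, hw⟩ := exists_ne (1 : W)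
    exact fun h => hw (mem_bot.1 (h ▸ (hSt 1 w).2 (map_one _)))⟩
  obtain ⟨⟨s, hs⟩, hs1⟩ := ne_bot_iff_exists_ne_one.1 ha
  have hs1 : s ≠ 1 := fun h => hs1 (Subtype.ext h)
  refine ⟨a, s, hs1, fun w => ⟨fun hw => ?_, fun hw => (zpowers_le.2 hs) hw⟩⟩
  by_contra hw'
  set m := Nat.card (St a)
  have hmq : m.Coprime q := by
    obtain ⟨k, hk⟩ := IsPGroup.iff_card.1 (show IsPGroup p (St a) from fun g =>
      ⟨1, Subtype.ext (by simpa using hW g)⟩)
    rw [show m = p ^ k from hk]; exact hpq.pow_left k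
  have hinj : ∀ x y : A, x ^ m = y ^ m → x = y := fun x y h => by
    obtain ⟨k, hk1, hk2⟩ := Nat.chineseRemainder hmq 0 1
    obtain ⟨j, hj⟩ := (Nat.modEq_zero_iff_dvd.1 hk1)
    have := congrArg (· ^ j) h
    simp only [← pow_mul, ← hj] at this
    rwa [pow_eq_pow_of_modEq hk2 (hA x), pow_eq_pow_of_modEq hk2 (hA y), pow_one, pow_one] at this
  let N : A →* A := ∏ v : St a, φ v
  have hN : ∀ x, N x = ∏ v : St a, φ v x := fun x => by simp [N]
  have hNφ : ∀ w x, N (φ w x) = φ w (N x) := fun w x => by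
    rw [hN, hN, map_prod]
    exact prod_congr rfl fun v _ => by rw [← hm, hc, hm]
  have hNf : ∀ x, (∀ v ∈ St a, φ v x = x) → N x = x ^ m := fun x hx => by
    rw [hN, prod_congr rfl fun (v : St a) _ => hx v v.2]; simp [m]
  have hφN : ∀ x, ∀ v ∈ St a, φ v (N x) = N x := fun x v hv => by
    rw [hN, map_prod]
    refine Fintype.prod_equiv (Equiv.mulLeft (⟨v, hv⟩ : St a)) _ _ fun u => ?_
    rw [← hm]; rfl
  have K : ∀ h ∈ St a, h ≠ 1 → ∀ b, N b = 1 → φ h b = b → b = 1 := fun h hh hh1 b hb hhb => by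
    have hle : St (a * b) ≤ St a := fun w hw => by
      apply hinj
      have := congrArg N ((hSt _ _).1 hw)
      rwa [hNφ, map_mul, hb, mul_one, hNf a fun v hv => hv, map_pow] at this
    have := hmin (j := a * b) (fun h0 => hh1 (mem_bot.1 (h0 ▸ (hSt _ _).2 (by rw [map_mul, hhb, hh])))) hle
    apply hinj
    rw [one_pow, ← hNf b fun v hv => ?_, hb]
    have h2 := (hSt _ _).1 (this hv)
    rwa [map_mul, (hSt _ _).1 hv, mul_right_inj] at h2
  have M : ∀ h ∈ St a, h ≠ 1 → ∀ b, N b = 1 → ∏ j ∈ range p, φ (h ^ j) b = 1 := fun h hh hh1 b hb => by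
    refine K h hh hh1 _ (by simp [map_prod, hNφ, hb]) ?_
    rw [map_prod]
    have e1 := prod_range_succ (fun j => φ (h ^ j) b) p
    rw [prod_range_succ', hW, pow_zero, mul_left_inj] at e1
    rw [← e1]
    exact prod_congr rfl fun j _ => by rw [← hm, pow_succ']
  have B : ∀ b, N b = 1 → b = 1 := fun b hb => by
    have e1 : ∏ i ∈ range p, ∏ j ∈ range p, φ ((w * s ^ i) ^ j) b = 1 := prod_eq_one fun i _ =>
      M _ (mul_mem hw (pow_mem hs i)) (fun h => hw' (by
        rw [eq_inv_of_mul_eq_one_left h]; exact inv_mem (pow_mem (mem_zpowers s) i))) b hb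
    rw [prod_comm, prod_eq_single 0 (fun j hj hj0 => ?_) (by simp [hp.ne_zero])] at e1
    · simp only [pow_zero, h1, prod_const, card_range] at e1
      exact orderOf_eq_one_iff.1 (Nat.eq_one_of_dvd_coprimes hpq (orderOf_dvd_of_pow_eq_one e1)
        (orderOf_dvd_of_pow_eq_one (hA b)))
    · have : ∀ i, φ ((w * s ^ i) ^ j) b = φ (w ^ j) (φ ((s ^ j) ^ i) b) := fun i => by
        rw [← hm, (show Commute w (s ^ i) from hc _ _).mul_pow, ← pow_mul, ← pow_mul, mul_comm i j]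
      simp only [this]
      rw [← map_prod, M _ (pow_mem hs j) (fun h => ?_) b hb, map_one]
      have := orderOf_dvd_of_pow_eq_one h
      rw [orderOf_eq_prime (hW s) hs1] at this
      exact hj0 (Nat.eq_zero_of_dvd_of_lt this (mem_range.1 hj))
  refine hs1 (hf s fun x => hinj _ _ ?_)
  have := B (x ^ m / N x) (by rw [map_div, map_pow, hNf (N x) (hφN x), div_self'])
  rw [div_eq_one] at this
  rw [← map_pow, this, hφN x s hs]

variable {G : Type*} [Group G] [Finite G]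

/-- conjugation on a normal subgroup -/
abbrev cj (U : Subgroup G) [U.Normal] (x : G) : U →* U := (MulAut.conjNormal x : MulAut U).toMonoidHom

@[simp] theorem cj_coe (U : Subgroup G) [U.Normal] (x : G) (u : U) : (cj U x u : G) = x * u * x⁻¹ := rfl

theorem cj_mul (U : Subgroup G) [U.Normal] (x y : G) (u : U) : cj U (x * y) u = cj U x (cj U y u) :=
  Subtype.ext (by simp [mul_assoc])

/-- rationality passes to the stabilisers of linear characters of an abelian normal complemented subgroup -/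
theorem dual {U X : Subgroup G} [U.Normal] (hUX : U ⊓ X = ⊥)
    (hG : ∀ g : G, ∃ x ∈ X, ∃ u ∈ U, x * u = g) {g : G} (hg : g ∈ X) {k : ℕ} (hk : k.Coprime (orderOf g))
    (hr : ∀ v ∈ U, IsConj (v * g) ((v * g) ^ k)) (μ : U →* ℂˣ) (hμ : ∀ u, μ (cj U g u) = μ u) :
    ∃ x ∈ X, x * g * x⁻¹ = g ^ k ∧ ∀ u, μ (cj U x u) = μ u ^ k := by
  classical
  haveI := Fintype.ofFinite G
  have ip : ∀ ν : U →* ℂˣ, (∀ u, ν (cj U g u) = ν u) → ∀ j u, ν (cj U (g ^ j) u) = ν u := fun ν hν j => by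
    induction j with
    | zero => intro u; congr 1; exact Subtype.ext (by simp)
    | succ j ih => intro u; rw [pow_succ', cj_mul, hν, ih]
  have pw : ∀ (v : U) (j : ℕ), ∃ w : U, (v * g) ^ j = w * g ^ j ∧
      ∀ ν : U →* ℂˣ, (∀ u, ν (cj U g u) = ν u) → ν w = ν v ^ j := fun v j => by
    induction j with
    | zero => exact ⟨1, by simp, by simp⟩
    | succ j ih =>
      obtain ⟨w, h1, h2⟩ := ih
      refine ⟨v * cj U g w, by rw [pow_succ', h1, pow_succ']; simp [mul_assoc], fun ν hν => ?_⟩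
      rw [map_mul, hν, h2 ν hν, pow_succ']
  have key : ∀ v : U, ∃ x ∈ X, x * g * x⁻¹ = g ^ k ∧
      ∀ ν : U →* ℂˣ, (∀ u, ν (cj U g u) = ν u) → ν (cj U x v) = ν v ^ k := fun v => by
    obtain ⟨c, hc⟩ := isConj_iff.1 (hr v v.2)
    obtain ⟨x, hx, u, hu, rfl⟩ := hG c
    obtain ⟨w, h1, h2⟩ := pw v k
    set v' : U := ⟨u, hu⟩ * v * cj U g ⟨u, hu⟩⁻¹ with hv'
    have e1 : (cj U x v' : G) * (x * g * x⁻¹) = w * g ^ k := by
      rw [← h1, ← hc, hv']; simp [mul_assoc]
    have e2 : x * g * x⁻¹ * (g ^ k)⁻¹ = ((cj U x v')⁻¹ * w : U) := by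
      push_cast
      rw [eq_inv_mul_iff_mul_eq, ← mul_assoc, e1]; group
    have e3 : x * g * x⁻¹ * (g ^ k)⁻¹ = 1 := by
      rw [← mem_bot, ← hUX]
      exact mem_inf.2 ⟨e2 ▸ SetLike.coe_mem _, mul_mem (mul_mem (mul_mem hx hg) (inv_mem hx)) (inv_mem (pow_mem hg k))⟩
    have e4 := mul_inv_eq_one.1 e3
    have e5 : cj U x v' = w := by
      rw [e3, eq_comm, OneMemClass.coe_eq_one, inv_mul_eq_one] at e2; exact e2
    refine ⟨x, hx, e4, fun ν hν => ?_⟩
    have e6 : ∀ u, ν (cj U x (cj U g u)) = ν (cj U x u) := fun u => by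
      rw [← cj_mul, show x * g = g ^ k * x by rw [← e4]; group, cj_mul, ip ν hν]
    rw [← h2 ν hν, ← e5, hv', map_mul, map_mul, map_mul, map_mul, e6, map_inv, map_inv, mul_right_comm,
      mul_inv_cancel, one_mul]
  by_contra hcon
  push Not at hcon
  set D0 : Finset G := {d | d ∈ X ∧ d * g * d⁻¹ = g} with hD0
  set Dk : Finset G := {d | d ∈ X ∧ d * g * d⁻¹ = g ^ k} with hDk
  have E : ∀ v : U, ∑ x ∈ Dk, ((μ (cj U x v) / μ v ^ k : ℂˣ) : ℂ) = ∑ d ∈ D0, ((μ (cj U d v) ^ k / μ v ^ k : ℂˣ) : ℂ) :=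
    fun v => by
    obtain ⟨x, hx, h1, h2⟩ := key v
    symm
    refine sum_bij (fun d _ => d * x) (fun d hd => ?_) (fun _ _ _ _ h => mul_right_cancel h) (fun y hy => ?_) fun d hd => ?_
    · simp only [hD0, hDk, mem_filter, mem_univ, true_and] at hd ⊢
      refine ⟨mul_mem hd.1 hx, ?_⟩
      rw [show d * x * g * (d * x)⁻¹ = d * (x * g * x⁻¹) * d⁻¹ by group, h1, ← conj_pow, hd.2]
    · simp only [hD0, hDk, mem_filter, mem_univ, true_and] at hy ⊢
      refine ⟨y * x⁻¹, ⟨mul_mem hy.1 (inv_mem hx), ?_⟩, by simp⟩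
      have : y * x⁻¹ ∈ centralizer ({g ^ k} : Set G) := mem_c.2 (by
        conv_lhs => rw [← h1]
        conv_rhs => rw [← hy.2]
        group)
      rw [cent_pow hk, mem_c] at this
      rw [this]; group
    · simp only [hD0, mem_filter, mem_univ, true_and] at hd
      have := h2 (μ.comp (cj U d)) fun u => by
        simp only [MonoidHom.comp_apply]
        rw [← cj_mul, show d * g = g * d from mul_inv_eq_iff_eq_mul.1 hd.2, cj_mul, hμ]
      simp only [MonoidHom.comp_apply] at this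
      rw [cj_mul, this]
  have E2 := sum_congr (rfl : (univ : Finset U) = univ) fun v _ => E v
  rw [sum_comm, sum_comm (s := univ), sum_eq_zero fun x hx => ?_] at E2
  · have : ∀ d : G, ∑ v : U, ((μ (cj U d v) ^ k / μ v ^ k : ℂˣ) : ℂ) =
        ((if (Units.coeHom ℂ).comp ((μ.comp (cj U d)) ^ k / μ ^ k) = 1 then Fintype.card U else 0 : ℕ) : ℂ) :=
      fun d => sum_hom_units ((Units.coeHom ℂ).comp ((μ.comp (cj U d)) ^ k / μ ^ k))
    simp only [this] at E2
    rw [← Nat.cast_sum, eq_comm, Nat.cast_eq_zero, sum_eq_zero_iff] at E2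
    have := E2 1 (by simp [hD0])
    rw [if_pos (by ext u; simp [cj])] at this
    exact Fintype.card_ne_zero this
  · simp only [hDk, mem_filter, mem_univ, true_and] at hx
    obtain ⟨u, hu⟩ := hcon x hx.1 hx.2
    refine sum_hom_units_eq_zero ((Units.coeHom ℂ).comp (μ.comp (cj U x) / μ ^ k)) fun h => hu ?_
    have := DFunLike.congr_fun h u
    simpa [div_eq_one, Units.val_eq_one, -Units.val_div_eq_div_val] using this

/-- `Ω₁(Z(S))` -/
def Om (S : Subgroup G) (p : ℕ) : Subgroup G where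
  carrier := {w | w ∈ S ∧ (∀ s ∈ S, s * w = w * s) ∧ w ^ p = 1}
  one_mem' := ⟨one_mem _, by simp, one_pow p⟩
  mul_mem' := fun {a b} ha hb => ⟨mul_mem ha.1 hb.1, fun s hs => by
    rw [← mul_assoc, ha.2.1 s hs, mul_assoc, hb.2.1 s hs, mul_assoc],
    by rw [(show Commute a b from hb.2.1 a ha.1).mul_pow, ha.2.2, hb.2.2, one_mul]⟩
  inv_mem' := fun {a} ha => ⟨inv_mem ha.1, fun s hs => (show Commute s a from ha.2.1 s hs).inv_right.eq,
    by rw [inv_pow, ha.2.2, inv_one]⟩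

theorem Om_conj {S : Subgroup G} {p : ℕ} {x w : G} (hx : x ∈ normalizer (S : Set G)) (hw : w ∈ Om S p) :
    x * w * x⁻¹ ∈ Om S p := by
  refine ⟨(mem_normalizer_iff.1 hx w).1 hw.1, fun s hs => ?_, by rw [conj_pow, hw.2.2]; group⟩
  have := hw.2.1 _ ((mem_normalizer_iff''.1 hx s).1 hs)
  calc s * (x * w * x⁻¹) = x * (x⁻¹ * s * x * w) * x⁻¹ := by group
    _ = _ := by rw [this]; group

instance Om_normal (S : Subgroup G) [S.Normal] (p : ℕ) : (Om S p).Normal :=
  ⟨fun _ hw x => Om_conj (by simp [normalizer_eq_top]) hw⟩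

theorem Om_ne_bot {S : Subgroup G} {p : ℕ} [hp : Fact p.Prime] (hS : IsPGroup p S) (h : S ≠ ⊥) : Om S p ≠ ⊥ := by
  haveI := (nontrivial_iff_ne_bot S).2 h
  haveI := hS.center_nontrivial
  obtain ⟨k, hk0, hk⟩ := (hS.to_subgroup (center S)).nontrivial_iff_card.1 inferInstance
  obtain ⟨z, hz⟩ := exists_prime_orderOf_dvd_card' (G := center S) p (hk ▸ dvd_pow_self p hk0.ne')
  refine ne_bot_iff_exists_ne_one.2 ⟨⟨z, z.1.2, fun s hs => ?_, ?_⟩, fun h => ?_⟩
  · exact congrArg Subtype.val (mem_center_iff.1 z.2 ⟨s, hs⟩)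
  · have := pow_orderOf_eq_one z
    rw [hz] at this
    exact_mod_cast congrArg (fun y : center S => ((y : S) : G)) this
  · have : z = 1 := Subtype.ext (Subtype.ext (congrArg (fun y : Om S p => (y : G)) h))
    rw [this, orderOf_one] at hz
    exact hp.out.ne_one hz.symm

universe u

theorem sylow_normal_aux {p : ℕ} [hp : Fact p.Prime] (h3 : 3 < p) (n : ℕ) : ∀ (G : Type u) [Group G] [Finite G]
    [Group.IsSolvable G], Nat.card G = n → RatG G → ∀ S : Sylow p G, (S : Subgroup G).Normal := by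
  induction n using Nat.strong_induction_on with
  | _ n ih =>
  intro G _ _ _ hn hr S
  by_contra hS
  have hq : ∀ N : Subgroup G, N.Normal → N ≠ ⊥ → ((S : Subgroup G) ⊔ N).Normal := fun N _ hN => by
    have h1 := ih _ (by
      rw [← hn, card_eq_card_quotient_mul_card_subgroup N]
      exact lt_mul_of_one_lt_right Nat.card_pos ((one_lt_card_iff_ne_bot N).2 hN)) (G ⧸ N) rfl
      (hr.of_surj _ (QuotientGroup.mk'_surjective N)) (S.mapSurjective (QuotientGroup.mk'_surjective N))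
    have := h1.comap (QuotientGroup.mk' N)
    rwa [Sylow.coe_mapSurjective, comap_map_eq, QuotientGroup.ker_mk'] at this
  have hS1 : (S : Subgroup G) ≠ ⊥ := fun h => hS (h ▸ inferInstance)
  haveI : Nontrivial G := by
    by_contra h
    haveI := not_nontrivial_iff_subsingleton.1 h
    exact hS1 (Subsingleton.elim _ _)
  obtain ⟨q, U, hq', hUn, hU1, hU, hmin⟩ := Core.exists_elementaryAbelian_minimal_normal G
  have hUc : ∀ a ∈ U, ∀ b ∈ U, a * b = b * a := fun a ha b hb =>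
    congrArg Subtype.val (hU.1.is_comm.comm (⟨a, ha⟩ : U) ⟨b, hb⟩)
  have hpq : p.Coprime q := (Nat.coprime_primes hp.out hq').2 fun h => by
    subst h
    have : U ≤ S := (Core.le_pCore (fun g => ⟨1, Subtype.ext (by simpa using hU.2 g g.2)⟩)).trans
      (Core.pCore_le_sylow S)
    exact hS (sup_eq_left.2 this ▸ hq U hUn hU1)
  set X := normalizer ((S : Subgroup G) : Set G) with hX
  have hG : ∀ g : G, ∃ x ∈ X, ∃ u ∈ U, x * u = g := fun g => by
    haveI := hq U hUn hU1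
    have h1 := S.normalizer_sup_eq_top' (N := (S : Subgroup G) ⊔ U) le_sup_left
    rw [← sup_assoc, sup_eq_left.2 (show (S : Subgroup G) ≤ normalizer (S : Set G) from le_normalizer)] at h1
    have : g ∈ ((X ⊔ U : Subgroup G) : Set G) := by rw [show X ⊔ U = ⊤ from h1]; trivial
    rw [mul_normal] at this
    exact this
  have hA : (S : Subgroup G) ⊓ centralizer (U : Set G) = ⊥ := by
    by_contra h
    refine hS (sup_eq_left.2 (inf_le_left (a := (S : Subgroup G)) (b := centralizer (U : Set G))) ▸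
      hq _ ⟨fun a ha g => ?_⟩ h)
    obtain ⟨x, hx, u, hu, rfl⟩ := hG g
    rw [show x * u * a * (x * u)⁻¹ = x * (u * a * u⁻¹) * x⁻¹ by group, mem_centralizer_iff.1 ha.2 u hu,
      mul_inv_cancel_right]
    exact ⟨(mem_normalizer_iff.1 hx a).1 ha.1, Normal.conj_mem inferInstance _ ha.2 x⟩
  have hUX : U ⊓ X = ⊥ := by
    refine (hmin _ ⟨fun a ha g => ?_⟩ inf_le_left).resolve_right fun h => hS (normalizer_eq_top_iff.1 ?_)
    · obtain ⟨x, hx, u, hu, rfl⟩ := hG g
      rw [show x * u * a * (x * u)⁻¹ = x * (u * a * u⁻¹) * x⁻¹ by group, hUc u hu a ha.1, mul_inv_cancel_right]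
      exact mem_inf.2 ⟨hUn.conj_mem _ ha.1 x, mul_mem (mul_mem hx (mem_inf.1 ha).2) (inv_mem hx)⟩
    · refine eq_top_iff.2 fun g _ => ?_
      obtain ⟨x, hx, u, hu, rfl⟩ := hG g
      exact mul_mem hx ((inf_eq_left.1 h) hu)
  set W := Om (S : Subgroup G) p
  haveI := (nontrivial_iff_ne_bot W).2 (Om_ne_bot S.2 hS1)
  obtain ⟨μ, s, hs1, hs⟩ := ms (W := W) (A := U →* ℂˣ) (fun a b => Subtype.ext (b.2.2.1 a a.2.1))
    (fun w => { toFun := fun μ => μ.comp (cj U w), map_one' := rfl, map_mul' := fun _ _ => rfl }) (fun μ => by ext u; simp [cj])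
    (fun a b μ => by
      ext u
      change ((μ (cj U (a * b : W) u) : ℂˣ) : ℂ) = μ (cj U b (cj U a u))
      rw [← cj_mul, ← show (a : G) * b = b * a from b.2.2.1 a a.2.1]; rfl)
    (fun w hw => by
      let _ : CommGroup U := { (inferInstance : Group _) with mul_comm := hU.1.is_comm.comm }
      have : NeZero (Monoid.exponent U : ℂ) := ⟨Nat.cast_ne_zero.2 Monoid.exponent_ne_zero_of_finite⟩
      refine Subtype.ext (mem_bot.1 (hA ▸ ⟨w.2.1, mem_centralizer_iff.2 fun u hu => ?_⟩))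
      have := (CommGroup.forall_apply_eq_apply_iff U (M := ℂ) (g := cj U w ⟨u, hu⟩) (g' := ⟨u, hu⟩)).1
        fun μ => DFunLike.congr_fun (hw μ) _
      have := congrArg Subtype.val this
      simp only [cj_coe] at this
      conv_lhs => rw [← this]
      group)
    hp.out hpq (fun w => Subtype.ext w.2.2.2) (fun μ => by
      ext u
      rw [MonoidHom.pow_apply, ← map_pow, show u ^ q = 1 from Subtype.ext (hU.2 u u.2)]; simp)
  have hs' : ∀ w : W, (∀ u, μ (cj U w u) = μ u) ↔ w ∈ zpowers s := fun w => by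
    rw [← hs]; exact ⟨fun h => MonoidHom.ext h, fun h u => DFunLike.congr_fun h u⟩
  have hso : orderOf (s : G) = p := orderOf_eq_prime s.2.2.2 (by simpa using hs1)
  have hsX : (s : G) ∈ X := le_normalizer s.2.1
  obtain ⟨k, hk1, hk2⟩ := Nat.chineseRemainder hpq 2 1
  have hkp : k.Coprime p := by
    rw [Nat.Coprime, hk1.gcd_eq]; exact (Nat.coprime_primes Nat.prime_two hp.out).2 (by omega)
  obtain ⟨x, hx, h1, h2⟩ := dual hUX hG hsX (k := k) (hso ▸ hkp) (fun v hv => hr _ _ (by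
    refine Nat.Coprime.coprime_dvd_right (orderOf_dvd_of_pow_eq_one (n := p * q) ?_) (hkp.mul_right ?_)
    · rw [pow_mul]
      apply hU.2
      rw [← QuotientGroup.eq_one_iff]
      rw [QuotientGroup.mk_pow, QuotientGroup.mk_mul, (QuotientGroup.eq_one_iff v).2 hv, one_mul,
        ← QuotientGroup.mk_pow, s.2.2.2, QuotientGroup.mk_one]
    · have := hk2.gcd_eq; simpa using this)) μ ((hs' s).2 (mem_zpowers s))
  have h2' : ∀ u, μ (cj U x u) = μ u := fun u => by
    rw [h2, ← map_pow, pow_eq_pow_of_modEq hk2 (Subtype.ext (hU.2 u u.2)), pow_one]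
  rw [pow_eq_pow_of_modEq hk1 s.2.2.2] at h1
  have hN : ∀ {K : Type u} [Group K] (y : K), y ^ Nat.card G = 1 → y ^ (Nat.card G - 1) = y⁻¹ := fun y hy => by
    rw [eq_inv_iff_mul_eq_one, ← pow_succ, Nat.sub_add_cancel Nat.card_pos, hy]
  obtain ⟨h, hh, h3', h4⟩ := dual hUX hG hx (k := Nat.card G - 1) (by
    refine Nat.Coprime.coprime_dvd_right (orderOf_dvd_natCard x) ?_
    obtain ⟨m, hm⟩ : ∃ m, Nat.card G = m + 1 := ⟨_, (Nat.sub_add_cancel Nat.card_pos).symm⟩
    rw [hm]; simp) (fun v _ => by rw [hN _ pow_card_eq_one']; exact hr.inv _) μ h2'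
  rw [hN _ pow_card_eq_one'] at h3'
  have h4' : ∀ u, μ (cj U h u) = (μ u)⁻¹ := fun u => by
    rw [h4, ← map_pow, hN u (Subtype.ext pow_card_eq_one'), map_inv]
  have h4'' : ∀ u, μ (cj U h⁻¹ u) = (μ u)⁻¹ := fun u => by
    rw [← inv_eq_iff_eq_inv, ← h4', ← cj_mul]; simp [cj]
  have h5 : (⟨h⁻¹ * s * h⁻¹⁻¹, Om_conj (inv_mem hh) s.2⟩ : W) ∈ zpowers s := (hs' _).1 fun u => by
    change μ (cj U (h⁻¹ * s * h⁻¹⁻¹) u) = μ u
    rw [inv_inv, cj_mul, cj_mul, h4'', (hs' s).2 (mem_zpowers s), h4', inv_inv]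
  obtain ⟨b, hb⟩ := mem_zpowers_iff.1 h5
  have hb' : (s : G) ^ b = h⁻¹ * s * h := by simpa using congrArg Subtype.val hb
  have h6 : x * (h⁻¹ * s * h) * x⁻¹ = (h⁻¹ * s * h) ^ 2 := by
    rw [← hb', ← conj_zpow, h1, ← zpow_natCast, ← zpow_natCast, ← zpow_mul, ← zpow_mul, mul_comm]
  have h7 : x⁻¹ * s * x = (s : G) ^ 2 := by
    calc x⁻¹ * s * x = (h * x * h⁻¹) * s * (h * x * h⁻¹)⁻¹ := by rw [h3', inv_inv]
      _ = h * (x * (h⁻¹ * s * h) * x⁻¹) * h⁻¹ := by group
      _ = _ := by rw [h6, pow_two, pow_two]; group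
  have h8 : (s : G) ^ 3 = 1 := by
    have : (s : G) = s ^ 4 := by
      calc (s : G) = x * (x⁻¹ * s * x) * x⁻¹ := by group
        _ = _ := by rw [h7, ← conj_pow, h1, ← pow_mul]
    rw [pow_succ] at this
    exact (right_eq_mul.1 this)
  have := Nat.le_of_dvd (by norm_num) (hso ▸ orderOf_dvd_of_pow_eq_one h8)
  omega

theorem RatG.sylow_normal [Group.IsSolvable G] (hr : RatG G) {p : ℕ} [Fact p.Prime] (h3 : 3 < p) (S : Sylow p G) :
    (S : Subgroup G).Normal := sylow_normal_aux h3 _ G rfl hr S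

end CfsgLib.AH
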