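import Mathlib

/-! Arithmetic for the solvable `S₃`-conjecture: smooth values of `p ^ m - 1` and sums of distinct unit fractions. -/

set_option autoImplicit false

namespace CfsgLib.AH

open Finset

theorem pw_of {n r : ℕ} (hn : n ≠ 0) (h : ∀ d : ℕ, d.Prime → d ∣ n → d = r) : ∃ k, n = r ^ k :=
  ⟨_, Nat.eq_prime_pow_of_unique_prime_dvd hn fun {d} hd h1 => h d hd h1⟩

theorem three_pow_mod (d : ℕ) : 3 ^ d % 80 = 1 ∨ 3 ^ d % 80 = 3 ∨ 3 ^ d % 80 = 9 ∨ 3 ^ d % 80 = 27 := by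
  induction d with
  | zero => simp
  | succ d ih => rw [pow_succ]; omega

theorem nt_two {p : ℕ} (hp : p.Prime) (h3 : 3 < p) (h : ∀ r : ℕ, r.Prime → r ∣ p * p - 1 → r = 2 ∨ r = 3) :
    p = 5 ∨ p = 7 ∨ p = 17 := by
  have h2 : p % 2 = 1 := hp.eq_two_or_odd.resolve_left (by omega)
  have h0 : p % 3 ≠ 0 := fun h => by
    have := (Nat.prime_dvd_prime_iff_eq Nat.prime_three hp).1 (Nat.dvd_of_mod_eq_zero h); omega
  obtain ⟨u, rfl⟩ : ∃ u, p = 2 * u + 1 := ⟨p / 2, by omega⟩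
  have e : (2 * u + 1) * (2 * u + 1) - 1 = 4 * (u * (u + 1)) := by
    rw [show (2 * u + 1) * (2 * u + 1) = 4 * (u * (u + 1)) + 1 by ring]; rfl
  rw [e] at h
  have h1 : ∀ r : ℕ, r.Prime → r ∣ u → r = 2 ∨ r = 3 := fun r hr hd => h r hr ((hd.mul_right _).mul_left _)
  have h1' : ∀ r : ℕ, r.Prime → r ∣ u + 1 → r = 2 ∨ r = 3 := fun r hr hd => h r hr ((hd.mul_left _).mul_left _)
  rcases (show u % 3 = 0 ∨ u % 3 = 2 by omega) with h4 | h4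
  · obtain ⟨n, hn⟩ := pw_of (n := u + 1) (r := 2) (by omega) fun d hd h => (h1' d hd h).resolve_right (by
      rintro rfl; omega)
    rcases n with _ | _ | _ | n
    · omega
    · omega
    · omega
    · obtain ⟨b, hb⟩ := pw_of (n := u) (r := 3) (by omega) fun d hd h => (h1 d hd h).resolve_left (by
        rintro rfl; omega)
      have := three_pow_mod b
      omega
  · obtain ⟨n, hn⟩ := pw_of (n := u) (r := 2) (by omega) fun d hd h => (h1 d hd h).resolve_right (by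
      rintro rfl; omega)
    rcases n with _ | _ | _ | _ | n
    · omega
    · omega
    · omega
    · omega
    · obtain ⟨b, hb⟩ := pw_of (n := u + 1) (r := 3) (by omega) fun d hd h => (h1' d hd h).resolve_left (by
        rintro rfl; omega)
      have := three_pow_mod b
      have := h1 5 (by norm_num) (by omega)
      omega

theorem nt {p m : ℕ} (hp : p.Prime) (h3 : 3 < p) (hm : 2 ≤ m) (h : ∀ r : ℕ, r.Prime → r ∣ p ^ m - 1 → r = 2 ∨ r = 3) :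
    (p = 5 ∨ p = 7 ∨ p = 17) ∧ p * p - 1 ∣ p ^ m - 1 := by
  have h2 : p % 2 = 1 := hp.eq_two_or_odd.resolve_left (by omega)
  have h0 : p % 3 ≠ 0 := fun h => by
    have := (Nat.prime_dvd_prime_iff_eq Nat.prime_three hp).1 (Nat.dvd_of_mod_eq_zero h); omega
  rcases Nat.even_or_odd m with he | ho
  · have := Nat.pow_sub_one_dvd_pow_sub_one p he.two_dvd
    rw [pow_two] at this
    exact ⟨nt_two hp h3 fun r hr hd => h r hr (hd.trans this), this⟩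
  exfalso
  have e : (∑ i ∈ range m, p ^ i) * (p - 1) = p ^ m - 1 := by
    zify [hp.one_le, Nat.one_le_pow m p hp.pos]
    exact geom_sum_mul _ _
  have f2 : ∀ j, (∑ i ∈ range j, p ^ i) % 2 = j % 2 := fun j => by
    induction j with
    | zero => simp
    | succ j ih => rw [sum_range_succ, Nat.add_mod, ih, Nat.pow_mod, h2]; simp
  have f1 : (∑ i ∈ range m, p ^ i) ≠ 1 := by
    obtain ⟨j, rfl⟩ : ∃ j, m = j + 2 := ⟨m - 2, by omega⟩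
    rw [sum_range_succ, sum_range_succ]
    have := Nat.one_le_pow j p hp.pos
    have := Nat.one_le_pow (j + 1) p hp.pos
    omega
  obtain ⟨r, hr, hd⟩ := Nat.exists_prime_and_dvd f1
  have hr3 : r = 3 := (h r hr (e ▸ hd.mul_right _)).resolve_left (by
    rintro rfl
    have := f2 m
    have := Nat.odd_iff.1 ho
    omega)
  subst hr3
  rcases (show p % 3 = 1 ∨ p % 3 = 2 by omega) with h4 | h4
  · have f3 : ∀ j, (∑ i ∈ range j, p ^ i) % 3 = j % 3 := fun j => by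
      induction j with
      | zero => simp
      | succ j ih => rw [sum_range_succ, Nat.add_mod, ih, Nat.pow_mod, h4]; simp
    have h5 := Nat.pow_sub_one_dvd_pow_sub_one p (show 3 ∣ m by have := f3 m; omega)
    obtain ⟨t, rfl⟩ : ∃ t, p = 6 * t + 1 := ⟨p / 6, by omega⟩
    have e3 : (6 * t + 1) ^ 3 - 1 = 18 * t * (12 * (t * t) + 6 * t + 1) := by
      rw [show (6 * t + 1) ^ 3 = 18 * t * (12 * (t * t) + 6 * t + 1) + 1 by ring]; rfl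
    obtain ⟨r, hr, hd⟩ := Nat.exists_prime_and_dvd (show 12 * (t * t) + 6 * t + 1 ≠ 1 by omega)
    rcases h r hr (((hd.mul_left _).trans e3.symm.dvd).trans h5) with rfl | rfl <;> omega
  · obtain ⟨j, rfl⟩ := ho
    have h5 : p ^ (2 * j + 1) % 3 = 2 := by
      rw [pow_succ, pow_mul, Nat.mul_mod, Nat.pow_mod, Nat.pow_mod p, h4]; simp
    have : 3 ∣ p ^ (2 * j + 1) - 1 := e ▸ hd.mul_right _
    omega

/-- all finite sums of unit fractions with distinct denominators in `X` are bounded by `α` -/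
def Bd (X : Set ℕ) (α : ℚ) : Prop := ∀ F : Finset ℕ, (∀ n ∈ F, n ∈ X) → ∑ n ∈ F, (1 : ℚ) / n ≤ α

theorem Bd.mul {X Y : Set ℕ} {α β : ℚ} (hX : Bd X α) (hY : Bd Y β) : Bd (Set.image2 (· * ·) X Y) (α * β) := by
  intro F hF
  choose! a ha b hb hab using hF
  calc _ ≤ ∑ n ∈ (F.image a ×ˢ F.image b).image fun q => q.1 * q.2, (1 : ℚ) / n :=
        sum_le_sum_of_subset_of_nonneg (fun n hn => mem_image.2 ⟨(a n, b n),
          mem_product.2 ⟨mem_image_of_mem _ hn, mem_image_of_mem _ hn⟩, hab n hn⟩) fun _ _ _ => by positivity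
    _ ≤ ∑ q ∈ F.image a ×ˢ F.image b, (1 : ℚ) / (q.1 * q.2 : ℕ) :=
        sum_image_le_of_nonneg fun _ _ => by positivity
    _ = (∑ n ∈ F.image a, (1 : ℚ) / n) * ∑ n ∈ F.image b, (1 : ℚ) / n := by
        rw [sum_mul_sum, sum_product]
        exact sum_congr rfl fun _ _ => sum_congr rfl fun _ _ => by push_cast; rw [one_div_mul_one_div]
    _ ≤ _ := mul_le_mul (hX _ (by simpa using ha)) (hY _ (by simpa using hb)) (sum_nonneg fun _ _ => by positivity)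
        (by simpa using hX ∅)

theorem Bd.geo {r : ℕ} (hr : 1 < r) : Bd {n | ∃ a, n = r ^ a} (r / (r - 1)) := by
  intro F hF
  choose! a ha using hF
  have h1 : (1 : ℚ) < r := by exact_mod_cast hr
  have h2 : ∀ M, ∑ i ∈ range M, (1 : ℚ) / (r ^ i : ℕ) = (r - r / r ^ M) / (r - 1) := fun M => by
    have : (r : ℚ) - 1 ≠ 0 := by linarith
    induction M with
    | zero => simp
    | succ M ih => rw [sum_range_succ, ih]; push_cast; field_simp; ring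
  calc _ ≤ ∑ n ∈ (range (F.sup a + 1)).image (r ^ ·), (1 : ℚ) / n :=
        sum_le_sum_of_subset_of_nonneg (fun n hn => mem_image.2 ⟨a n,
          mem_range.2 (Nat.lt_succ_of_le (le_sup hn)), (ha n hn).symm⟩) fun _ _ _ => by positivity
    _ ≤ ∑ i ∈ range (F.sup a + 1), (1 : ℚ) / (r ^ i : ℕ) := sum_image_le_of_nonneg fun _ _ => by positivity
    _ ≤ _ := by
        rw [h2]
        exact div_le_div_of_nonneg_right (sub_le_self _ (by positivity)) (by linarith)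

theorem Bd.diff {X : Set ℕ} {α : ℚ} (hX : Bd X α) (E : Finset ℕ) (hE : ∀ n ∈ E, n ∈ X) :
    Bd {n | n ∈ X ∧ n ∉ E} (α - ∑ n ∈ E, (1 : ℚ) / n) := by
  intro F hF
  have := hX (F ∪ E) fun n hn => (mem_union.1 hn).elim (fun h => (hF n h).1) (hE n)
  rw [sum_union (disjoint_left.2 fun n hn => (hF n hn).2)] at this
  linarith

theorem Bd.ins {X : Set ℕ} {α : ℚ} (hX : Bd X α) (x : ℕ) : Bd (insert x X) (α + 1 / x) := by
  intro F hF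
  have h1 := hX (F.erase x) fun n hn => (hF n (mem_of_mem_erase hn)).resolve_left (ne_of_mem_erase hn)
  by_cases hx : x ∈ F
  · rw [← sum_erase_add _ _ hx]; linarith
  · rw [erase_eq_of_notMem hx] at h1
    exact h1.trans (le_add_of_nonneg_right (by positivity))

theorem Bd.fin (E : Finset ℕ) : Bd E (∑ n ∈ E, (1 : ℚ) / n) := fun _ hF =>
  sum_le_sum_of_subset_of_nonneg hF fun _ _ _ => by positivity

theorem Bd.mono {X Y : Set ℕ} {α β : ℚ} (hX : Bd X α) (h : Y ⊆ X) (hαβ : α ≤ β) : Bd Y β := fun F hF =>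
  (hX F fun n hn => h (hF n hn)).trans hαβ

theorem Bd.nq {r : ℕ} (hr : 1 < r) : Bd {n | ∃ a, a ≠ 1 ∧ n = r ^ a} (r / (r - 1) - 1 / r) :=
  ((Bd.geo hr).diff {r} (by simpa using ⟨1, by simp⟩)).mono (by
    rintro _ ⟨a, ha, rfl⟩
    exact ⟨⟨a, rfl⟩, by simpa using fun h => ha (Nat.pow_right_injective hr (h.trans (pow_one r).symm))⟩) (by simp)

/-- the admissible centraliser orders -/
def Sm (n : ℕ) : Prop := n ≠ 0 ∧ ∀ r : ℕ, r.Prime → r ∣ n → r = 2 ∨ r = 3 ∨ ((r = 5 ∨ r = 7 ∨ r = 17) ∧ r * r ∣ n)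

theorem Sm.dec {n : ℕ} (h : Sm n) : ∃ a b c d e : ℕ, c ≠ 1 ∧ d ≠ 1 ∧ e ≠ 1 ∧ n = 2 ^ a * 3 ^ b * (5 ^ c * 7 ^ d * 17 ^ e) := by
  have h1 : ∀ r : ℕ, r.Prime → 3 < r → n.factorization r ≠ 1 := fun r hr h3 e => by
    rcases h.2 r hr ((hr.dvd_iff_one_le_factorization h.1).2 e.ge) with h2 | h2 | h2
    · omega
    · omega
    · have := (hr.pow_dvd_iff_le_factorization h.1).1 (pow_two r ▸ h2.2); omega
  refine ⟨n.factorization 2, n.factorization 3, _, _, _, h1 5 (by norm_num) (by norm_num),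
    h1 7 (by norm_num) (by norm_num), h1 17 (by norm_num) (by norm_num), ?_⟩
  conv_lhs => rw [← Nat.prod_factorization_pow_eq_self h.1]
  rw [Finsupp.prod_of_support_subset _ (s := {2, 3, 5, 7, 17}) (fun r hr => ?_) _ (by simp)]
  · simp [mul_assoc]
  · have := Nat.mem_primeFactors.1 hr
    have := h.2 r this.1 this.2.1
    simp only [mem_insert, mem_singleton]
    tauto

theorem bdT : Bd {n | ∃ c d e : ℕ, c ≠ 1 ∧ d ≠ 1 ∧ e ≠ 1 ∧ n = 5 ^ c * 7 ^ d * 17 ^ e} (1079 / 1000) :=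
  (((Bd.nq (r := 5) (by norm_num)).mul (Bd.nq (r := 7) (by norm_num))).mul (Bd.nq (r := 17) (by norm_num))).mono
    (by rintro _ ⟨c, d, e, hc, hd, he, rfl⟩; exact ⟨_, ⟨_, ⟨c, hc, rfl⟩, _, ⟨d, hd, rfl⟩, rfl⟩, _, ⟨e, he, rfl⟩, rfl⟩)
    (by norm_num)

theorem exp_zero {r c m n : ℕ} (h : ¬ r ∣ n) (e : n = r ^ c * m) : c = 0 := by
  by_contra hc; exact h (e ▸ (dvd_pow_self r hc).mul_right _)

theorem bd1 : Bd {n | Sm n ∧ ¬ 5 ∣ n ∧ ¬ 7 ∣ n ∧ ¬ 17 ∣ n ∧ n ≠ 1 ∧ n ≠ 2 ∧ n ≠ 3 ∧ n ≠ 4} (11 / 12) := by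
  refine (((Bd.geo (r := 2) (by norm_num)).mul (Bd.geo (r := 3) (by norm_num))).diff {1, 2, 3, 4} ?_).mono ?_
    (by norm_num)
  · simp only [mem_insert, mem_singleton]
    rintro _ (rfl | rfl | rfl | rfl)
    exacts [⟨_, ⟨0, rfl⟩, _, ⟨0, rfl⟩, rfl⟩, ⟨_, ⟨1, rfl⟩, _, ⟨0, rfl⟩, rfl⟩, ⟨_, ⟨0, rfl⟩, _, ⟨1, rfl⟩, rfl⟩,
      ⟨_, ⟨2, rfl⟩, _, ⟨0, rfl⟩, rfl⟩]
  · rintro n ⟨h, h5, h7, h17, h'⟩
    obtain ⟨a, b, c, d, e, -, -, -, hn⟩ := h.dec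
    obtain rfl := exp_zero h5 (c := c) (m := 2 ^ a * 3 ^ b * 7 ^ d * 17 ^ e) (by rw [hn]; ring)
    obtain rfl := exp_zero h7 (c := d) (m := 2 ^ a * 3 ^ b * 17 ^ e) (by rw [hn]; ring)
    obtain rfl := exp_zero h17 (c := e) (m := 2 ^ a * 3 ^ b) (by rw [hn]; ring)
    exact ⟨⟨_, ⟨a, rfl⟩, _, ⟨b, rfl⟩, by simp [hn]⟩, by simpa using h'⟩

theorem le3 {a m n : ℕ} (h : ¬ 16 ∣ n) (e : n = 2 ^ a * m) : 2 ^ a ∈ (({1, 2, 4, 8} : Finset ℕ) : Set ℕ) := by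
  rcases a with _ | _ | _ | _ | a
  any_goals simp
  exact h ⟨2 ^ a * m, by rw [e]; ring⟩ |>.elim

theorem bd2 : Bd {n | Sm n ∧ ¬ 5 ∣ n ∧ ¬ 7 ∣ n ∧ ¬ 17 ∣ n ∧ ¬ 16 ∣ n ∧ n ≠ 1 ∧ n ≠ 2 ∧ n ≠ 3} (47 / 48) := by
  refine (((Bd.fin {1, 2, 4, 8}).mul (Bd.geo (r := 3) (by norm_num))).diff {1, 2, 3} ?_).mono ?_ (by norm_num)
  · simp only [mem_insert, mem_singleton]
    rintro _ (rfl | rfl | rfl)
    exacts [⟨1, by simp, _, ⟨0, rfl⟩, rfl⟩, ⟨2, by simp, _, ⟨0, rfl⟩, rfl⟩, ⟨1, by simp, _, ⟨1, rfl⟩, rfl⟩]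
  · rintro n ⟨h, h5, h7, h17, h16, h'⟩
    obtain ⟨a, b, c, d, e, -, -, -, hn⟩ := h.dec
    obtain rfl := exp_zero h5 (c := c) (m := 2 ^ a * 3 ^ b * 7 ^ d * 17 ^ e) (by rw [hn]; ring)
    obtain rfl := exp_zero h7 (c := d) (m := 2 ^ a * 3 ^ b * 17 ^ e) (by rw [hn]; ring)
    obtain rfl := exp_zero h17 (c := e) (m := 2 ^ a * 3 ^ b) (by rw [hn]; ring)
    exact ⟨⟨_, le3 h16 (a := a) (m := 3 ^ b) (by simp [hn]), _, ⟨b, rfl⟩, by simp [hn]⟩, by simpa using h'⟩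

theorem bd3 : Bd {n | Sm n ∧ ¬ 5 ∣ n ∧ ¬ 7 ∣ n ∧ ¬ 17 ∣ n ∧ ¬ 3 ∣ n ∧ n ≠ 1 ∧ n ≠ 2} (1 / 2) := by
  refine ((Bd.geo (r := 2) (by norm_num)).diff {1, 2} ?_).mono ?_ (by norm_num)
  · simp only [mem_insert, mem_singleton]
    rintro _ (rfl | rfl)
    exacts [⟨0, rfl⟩, ⟨1, rfl⟩]
  · rintro n ⟨h, h5, h7, h17, h3, h'⟩
    obtain ⟨a, b, c, d, e, -, -, -, hn⟩ := h.dec
    obtain rfl := exp_zero h5 (c := c) (m := 2 ^ a * 3 ^ b * 7 ^ d * 17 ^ e) (by rw [hn]; ring)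
    obtain rfl := exp_zero h7 (c := d) (m := 2 ^ a * 3 ^ b * 17 ^ e) (by rw [hn]; ring)
    obtain rfl := exp_zero h17 (c := e) (m := 2 ^ a * 3 ^ b) (by rw [hn]; ring)
    obtain rfl := exp_zero h3 (c := b) (m := 2 ^ a) (by rw [hn]; ring)
    exact ⟨⟨a, by simp [hn]⟩, by simpa using h'⟩

theorem bd4 : Bd {n | Sm n ∧ ¬ 3 ∣ n ∧ n ≠ 1 ∧ n ≠ 2} (658 / 1000) := by
  refine (((Bd.geo (r := 2) (by norm_num)).mul bdT).diff {1, 2} ?_).mono ?_ (by norm_num)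
  · simp only [mem_insert, mem_singleton]
    rintro _ (rfl | rfl)
    exacts [⟨_, ⟨0, rfl⟩, _, ⟨0, 0, 0, by simp, by simp, by simp, rfl⟩, rfl⟩,
      ⟨_, ⟨1, rfl⟩, _, ⟨0, 0, 0, by simp, by simp, by simp, rfl⟩, rfl⟩]
  · rintro n ⟨h, h3, h'⟩
    obtain ⟨a, b, c, d, e, hc, hd, he, hn⟩ := h.dec
    obtain rfl := exp_zero h3 (c := b) (m := 2 ^ a * (5 ^ c * 7 ^ d * 17 ^ e)) (by rw [hn]; ring)
    exact ⟨⟨_, ⟨a, rfl⟩, _, ⟨c, d, e, hc, hd, he, rfl⟩, by simp [hn]⟩, by simpa using h'⟩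

theorem bd5 : Bd {n | Sm n ∧ ¬ 7 ∣ n ∧ ¬ 17 ∣ n ∧ ¬ 16 ∣ n ∧ n ≠ 1 ∧ n ≠ 2 ∧ n ≠ 3 ∧ n ≠ 6} (96 / 100) := by
  refine ((((Bd.fin {1, 2, 4, 8}).mul (Bd.geo (r := 3) (by norm_num))).mul (Bd.nq (r := 5) (by norm_num))).diff
    {1, 2, 3, 6} ?_).mono ?_ (by norm_num)
  · simp only [mem_insert, mem_singleton]
    rintro _ (rfl | rfl | rfl | rfl)
    exacts [⟨_, ⟨1, by simp, _, ⟨0, rfl⟩, rfl⟩, _, ⟨0, by simp, rfl⟩, rfl⟩,
      ⟨_, ⟨2, by simp, _, ⟨0, rfl⟩, rfl⟩, _, ⟨0, by simp, rfl⟩, rfl⟩,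
      ⟨_, ⟨1, by simp, _, ⟨1, rfl⟩, rfl⟩, _, ⟨0, by simp, rfl⟩, rfl⟩,
      ⟨_, ⟨2, by simp, _, ⟨1, rfl⟩, rfl⟩, _, ⟨0, by simp, rfl⟩, rfl⟩]
  · rintro n ⟨h, h7, h17, h16, h'⟩
    obtain ⟨a, b, c, d, e, hc, -, -, hn⟩ := h.dec
    obtain rfl := exp_zero h7 (c := d) (m := 2 ^ a * 3 ^ b * 5 ^ c * 17 ^ e) (by rw [hn]; ring)
    obtain rfl := exp_zero h17 (c := e) (m := 2 ^ a * 3 ^ b * 5 ^ c) (by rw [hn]; ring)
    exact ⟨⟨_, ⟨_, le3 h16 (a := a) (m := 3 ^ b * 5 ^ c) (by rw [hn]; ring), _, ⟨b, rfl⟩, rfl⟩, _, ⟨c, hc, rfl⟩, by simp [hn]⟩,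
      by simpa using h'⟩

theorem bd6 : Bd {n | Sm n ∧ n ≠ 1 ∧ n ≠ 2 ∧ n ≠ 3 ∧ n ≠ 4 ∧ n ≠ 6} (99 / 100) := by
  refine ((((Bd.geo (r := 2) (by norm_num)).mul (Bd.geo (r := 3) (by norm_num))).mul bdT).diff
    {1, 2, 3, 4, 6} ?_).mono ?_ (by norm_num)
  · simp only [mem_insert, mem_singleton]
    rintro _ (rfl | rfl | rfl | rfl | rfl)
    exacts [⟨_, ⟨_, ⟨0, rfl⟩, _, ⟨0, rfl⟩, rfl⟩, _, ⟨0, 0, 0, by simp, by simp, by simp, rfl⟩, rfl⟩,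
      ⟨_, ⟨_, ⟨1, rfl⟩, _, ⟨0, rfl⟩, rfl⟩, _, ⟨0, 0, 0, by simp, by simp, by simp, rfl⟩, rfl⟩,
      ⟨_, ⟨_, ⟨0, rfl⟩, _, ⟨1, rfl⟩, rfl⟩, _, ⟨0, 0, 0, by simp, by simp, by simp, rfl⟩, rfl⟩,
      ⟨_, ⟨_, ⟨2, rfl⟩, _, ⟨0, rfl⟩, rfl⟩, _, ⟨0, 0, 0, by simp, by simp, by simp, rfl⟩, rfl⟩,
      ⟨_, ⟨_, ⟨1, rfl⟩, _, ⟨1, rfl⟩, rfl⟩, _, ⟨0, 0, 0, by simp, by simp, by simp, rfl⟩, rfl⟩]
  · rintro n ⟨h, h'⟩
    obtain ⟨a, b, c, d, e, hc, hd, he, hn⟩ := h.dec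
    exact ⟨⟨_, ⟨_, ⟨a, rfl⟩, _, ⟨b, rfl⟩, rfl⟩, _, ⟨c, d, e, hc, hd, he, rfl⟩, hn.symm⟩, by simpa using h'⟩

end CfsgLib.AH
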