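import Mathlib
import Cfsg.Agent.Lib.AH.Dual
import Cfsg.Agent.Lib.Coprime.Action

/-! Fixed spaces of dimension one do not occur in real groups acting with large eigenvalues. -/

set_option autoImplicit false
set_option linter.unusedSectionVars false
set_option linter.style.haveILetI false

namespace CfsgLib.AH

open Subgroup CfsgLib.FewCl Finset

theorem trace_lin {k M Γ : Type*} [Field k] [AddCommGroup M] [Module k M] [FiniteDimensional k M] [Group Γ] [Finite Γ]
    (hΓ : (Nat.card Γ : k) ≠ 0) (ρ : Representation k Γ M) (hr : ∀ g : Γ, IsConj g g⁻¹) (H : Set Γ) {s : M}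
    (hs : s ≠ 0) (hH : ∀ h ∈ H, ρ h s = s) (hfix : ∀ v, (∀ h ∈ H, ρ h v = v) → ∃ a : k, v = a • s) {g : Γ} {a : k}
    (hg : ρ g s = a • s) (ha : a * a ≠ 1) : False := by
  classical
  have hinv : ∀ (x : Γ) (c : k), ρ x s = c • s → c ≠ 0 ∧ ρ x⁻¹ s = c⁻¹ • s := fun x c h => by
    have h1 : c • ρ x⁻¹ s = s := by rw [← map_smul, ← h]; simp
    have h2 : c ≠ 0 := by rintro rfl; exact hs (by simpa using h1.symm)
    exact ⟨h2, by rw [eq_inv_smul_iff₀ h2, h1]⟩
  let B : Subgroup Γ :=
    { carrier := {x | ∃ c : k, ρ x s = c • s}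
      one_mem' := ⟨1, by simp⟩
      mul_mem' := fun {x y} ⟨c, hc⟩ ⟨d, hd⟩ => ⟨d * c, by simp [hc, hd, mul_smul]⟩
      inv_mem' := fun {x} ⟨c, hc⟩ => ⟨_, (hinv x c hc).2⟩ }
  haveI := Fintype.ofFinite B
  haveI : Invertible (Nat.card B : k) := invertibleOfNonzero fun h => hΓ (by
    obtain ⟨c, hc⟩ := card_subgroup_dvd_card B
    rw [hc, Nat.cast_mul, h, zero_mul])
  choose l hl using fun x : B => x.2
  have lu : ∀ (x : B) (c : k), ρ x s = c • s → l x = c := fun x c h =>
    smul_left_injective k hs ((hl x).symm.trans h)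
  have l1 : l 1 = 1 := lu _ _ (by simp)
  have lm : ∀ x y, l (x * y) = l x * l y := fun x y => lu _ _ (by simp [hl, mul_smul, mul_comm (l x)])
  have li : ∀ x, l x⁻¹ = (l x)⁻¹ := fun x => lu _ _ (hinv x _ (hl x)).2
  have l0 : ∀ x, l x ≠ 0 := fun x => (hinv x _ (hl x)).1
  let tw : (e : B → k) → e 1 = 1 → (∀ x y, e (x * y) = e x * e y) → Representation k B M := fun e h1 h2 =>
    { toFun := fun x => e x • ρ x
      map_one' := by simp [h1]
      map_mul' := fun x y => by simp [h2, mul_smul, smul_comm (e x) (e y)] }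
  let ρ1 := tw (fun x => (l x)⁻¹) (by simp [l1]) (fun x y => by rw [lm, mul_inv])
  let ρ2 := tw l l1 lm
  have hB : ∀ h ∈ H, ∃ hB : h ∈ B, l ⟨h, hB⟩ = 1 := fun h hh => ⟨⟨1, by simp [hH h hh]⟩, lu _ _ (by simp [hH h hh])⟩
  have i1 : ρ1.invariants = Submodule.span k {s} := by
    ext v
    rw [Submodule.mem_span_singleton, Representation.mem_invariants]
    refine ⟨fun h => ?_, ?_⟩
    · obtain ⟨c, hc⟩ := hfix v fun x hx => by
        obtain ⟨h1, h2⟩ := hB x hx
        simpa [ρ1, tw, h2] using h ⟨x, h1⟩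
      exact ⟨c, hc.symm⟩
    · rintro ⟨c, rfl⟩ x
      simp [ρ1, tw, hl, smul_smul, l0]
  have i2 : ρ2.invariants = ⊥ := by
    refine eq_bot_iff.2 fun v h => ?_
    rw [Representation.mem_invariants] at h
    obtain ⟨c, rfl⟩ := hfix v fun x hx => by
      obtain ⟨h1, h2⟩ := hB x hx
      simpa [ρ2, tw, h2] using h ⟨x, h1⟩
    have h1 := h ⟨g, a, hg⟩
    simp only [ρ2, tw, MonoidHom.coe_mk, OneHom.coe_mk, lu ⟨g, a, hg⟩ a hg, LinearMap.smul_apply, map_smul, hg,
      smul_smul] at h1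
    have h2 := smul_left_injective k hs h1
    have : c = 0 := by
      by_contra hc
      exact ha (mul_left_cancel₀ hc (by rw [mul_one]; linear_combination h2))
    simp [this]
  have e1 := ρ1.card_inv_mul_sum_char_eq_finrank
  have e2 := ρ2.card_inv_mul_sum_char_eq_finrank
  rw [i1, finrank_span_singleton hs] at e1
  rw [i2, finrank_bot] at e2
  have : ∑ x, ρ1.character x = ∑ x, ρ2.character x := by
    refine Fintype.sum_equiv (Equiv.inv B) _ _ fun x => ?_
    obtain ⟨c, hc⟩ := isConj_iff.1 (hr x)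
    have := ρ.char_conj x c
    rw [hc] at this
    simp only [Representation.character] at this
    simp [ρ1, ρ2, tw, Representation.character, li, this]
  rw [this, e2] at e1
  simp at e1

/-- automorphisms of an elementary abelian group as linear maps -/
def zrep (p : ℕ) (V : Type*) [CommGroup V] [Module (ZMod p) (Additive V)] :
    MulAut V →* Module.End (ZMod p) (Additive V) where
  toFun σ := (MonoidHom.toAdditive σ.toMonoidHom).toZModLinearMap p
  map_one' := by ext; rfl
  map_mul' _ _ := by ext; rfl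

theorem trace_grp {V Γ : Type*} [CommGroup V] [Finite V] [Group Γ] [Finite Γ] {p : ℕ} [hp : Fact p.Prime] (h3 : 3 < p)
    (hV : ∀ v : V, v ^ p = 1) (hΓ : ¬ p ∣ Nat.card Γ) (φ : Γ →* MulAut V) (hr : ∀ g : Γ, IsConj g g⁻¹) (H : Set Γ) {s : V}
    (hs : s ≠ 1) (hH : ∀ h ∈ H, φ h s = s) (hfix : ∀ v, (∀ h ∈ H, φ h v = v) → v ∈ zpowers s) {g : Γ}
    (hg : φ g s = s ^ 2) : False := by
  obtain ⟨_⟩ : Nonempty (Module (ZMod p) (Additive V)) := ⟨AddCommGroup.zmodModule fun x => hV (Additive.toMul x)⟩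
  refine trace_lin (k := ZMod p) (by rwa [Ne, ZMod.natCast_eq_zero_iff]) ((zrep p V).comp φ) hr H
    (s := Additive.ofMul s) (by simpa using hs) (fun h hh => congrArg Additive.ofMul (hH h hh)) ?_ (g := g) (a := 2) ?_ ?_
  · intro v hv
    obtain ⟨i, hi⟩ := mem_zpowers_iff.1 (hfix (Additive.toMul v) fun h hh => congrArg Additive.toMul (hv h hh))
    refine ⟨i, ?_⟩
    rw [Int.cast_smul_eq_zsmul]
    exact congrArg Additive.ofMul hi.symm
  · rw [two_smul]
    exact congrArg Additive.ofMul (hg.trans (pow_two s))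
  · intro h
    have : ((3 : ℕ) : ZMod p) = 0 := by push_cast; linear_combination h
    have := Nat.le_of_dvd (by norm_num) ((ZMod.natCast_eq_zero_iff _ _).1 this)
    omega

variable {G : Type*} [Group G] [Finite G]

/-- the action on a normal subgroup -/
abbrev ac (V : Subgroup G) [V.Normal] : G →* (MulAut.conjNormal : G →* MulAut V).range :=
  (MulAut.conjNormal : G →* MulAut V).rangeRestrict

theorem ac_surj (V : Subgroup G) [V.Normal] : Function.Surjective (ac V) := MonoidHom.rangeRestrict_surjective _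

theorem ac_eq_one {V : Subgroup G} [V.Normal] {g : G} : ac V g = 1 ↔ g ∈ centralizer (V : Set G) := by
  rw [mem_centralizer_iff, Subtype.ext_iff, MulEquiv.ext_iff]
  refine ⟨fun h v hv => ?_, fun h v => Subtype.ext ?_⟩
  · have : g * v * g⁻¹ = v := congrArg Subtype.val (h ⟨v, hv⟩)
    rw [mul_inv_eq_iff_eq_mul] at this
    exact this.symm
  · change g * v * g⁻¹ = v
    rw [← h v v.2, mul_inv_cancel_right]

theorem card_ac (V : Subgroup G) [V.Normal] :
    Nat.card (MulAut.conjNormal : G →* MulAut V).range = (centralizer (V : Set G)).index := by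
  rw [← index_ker]
  congr 1
  ext g
  rw [← ac_eq_one, MonoidHom.mem_ker, Subtype.ext_iff]; rfl

theorem RatG.not_line (hr : RatG G) {V : Subgroup G} [V.Normal] {p : ℕ} [hp : Fact p.Prime] (h3 : 3 < p)
    (hc : ∀ a ∈ V, ∀ b ∈ V, a * b = b * a) (hV : ∀ v ∈ V, v ^ p = 1) (hi : ¬ p ∣ (centralizer (V : Set G)).index)
    (H : Set G) {s : G} (hs : s ∈ V) (hs1 : s ≠ 1) (hH : ∀ h ∈ H, h * s = s * h)
    (hfix : ∀ v ∈ V, (∀ h ∈ H, h * v = v * h) → v ∈ zpowers s) {g : G} (hg : g * s * g⁻¹ = s ^ 2) : False := by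
  let _ : CommGroup V := { (inferInstance : Group _) with mul_comm := fun a b => Subtype.ext (hc _ a.2 _ b.2) }
  refine trace_grp (V := V) h3 (fun v => Subtype.ext (hV _ v.2)) (by rwa [card_ac]) (Subgroup.subtype _)
    (hr.of_surj _ (ac_surj V)).inv (ac V '' H) (s := ⟨s, hs⟩) (fun h => hs1 (congrArg Subtype.val h)) ?_ ?_
    (g := ac V g) (Subtype.ext hg)
  · rintro _ ⟨h, hh, rfl⟩
    exact Subtype.ext (mul_inv_eq_iff_eq_mul.2 (hH h hh))
  · intro v hv
    obtain ⟨i, hi⟩ := mem_zpowers_iff.1 (hfix _ v.2 fun h hh =>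
      mul_inv_eq_iff_eq_mul.1 (congrArg Subtype.val (hv _ ⟨h, hh, rfl⟩)))
    exact mem_zpowers_iff.2 ⟨i, Subtype.ext hi⟩

theorem not_dvd_index_Om {p : ℕ} [Fact p.Prime] (S : Sylow p G) :
    ¬ p ∣ (centralizer (Om (S : Subgroup G) p : Set G)).index := fun h =>
  S.not_dvd_index (h.trans (index_dvd_of_le fun s hs => mem_centralizer_iff.2 fun _ hw => (hw.2.1 s hs).symm))

universe u

theorem card_ne_aux {p : ℕ} [hp : Fact p.Prime] (h3 : 3 < p) (n : ℕ) : ∀ (G : Type u) [Group G] [Finite G]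
    [Group.IsSolvable G], Nat.card G = n → RatG G → ∀ (S : Sylow p G) (c : G), ¬ p ∣ orderOf c →
      Nat.card ((S : Subgroup G) ⊓ centralizer {c} : Subgroup G) ≠ p := by
  induction n using Nat.strong_induction_on with
  | _ n ih =>
  intro G _ _ _ hn hr S c hc h
  haveI := hr.sylow_normal h3 S
  set D : Subgroup G := (S : Subgroup G) ⊓ centralizer {c} with hD
  set W := Om (S : Subgroup G) p with hW
  have hS : (S : Subgroup G) ≠ ⊥ := fun h0 => by
    rw [hD, h0, bot_inf_eq, card_bot] at h; omega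
  have hWS : W ≤ S := fun w hw => hw.1
  by_cases h1 : W ⊓ D = ⊥
  · have hW1 := Om_ne_bot S.2 hS
    have hco : (Nat.card (zpowers c)).Coprime (Nat.card W) := by
      obtain ⟨k, hk⟩ := (S.2.to_le hWS).exists_card_eq
      rw [hk, Nat.card_zpowers]
      exact ((hp.out.coprime_iff_not_dvd.2 hc).symm).pow_right k
    refine ih _ (by
      rw [← hn, card_eq_card_quotient_mul_card_subgroup W]
      exact lt_mul_of_one_lt_right Nat.card_pos ((one_lt_card_iff_ne_bot W).2 hW1)) (G ⧸ W) rfl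
      (hr.of_surj _ (QuotientGroup.mk'_surjective W)) (S.mapSurjective (QuotientGroup.mk'_surjective W))
      (c : G ⧸ W) (fun h => hc (h.trans (orderOf_map_dvd (QuotientGroup.mk' W) c))) ?_
    have e1 := Coprime.map_centralizer_quotient W hco (Or.inr inferInstance)
    rw [MonoidHom.map_zpowers, zpowers_eq_closure, zpowers_eq_closure, centralizer_closure, centralizer_closure] at e1
    have e2 : (S : Subgroup G).map (QuotientGroup.mk' W) ⊓ centralizer {(c : G ⧸ W)} = D.map (QuotientGroup.mk' W) := by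
      rw [show centralizer {(c : G ⧸ W)} = _ from e1.symm]
      refine le_antisymm ?_ (le_inf (map_mono inf_le_left) (map_mono inf_le_right))
      rintro _ ⟨⟨s, hs, rfl⟩, ⟨d, hd, e⟩⟩
      refine ⟨d, ⟨?_, hd⟩, e⟩
      have := hWS (QuotientGroup.eq.1 e)
      have := mul_mem hs (inv_mem this)
      rwa [mul_inv_rev, mul_inv_cancel_left, inv_inv] at this
    rw [Sylow.coe_mapSurjective, e2]
    refine Eq.trans (Nat.card_congr (Equiv.ofBijective _ ⟨?_, (QuotientGroup.mk' W).subgroupMap_surjective D⟩)).symm h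
    refine (injective_iff_map_eq_one _).2 fun d hd => Subtype.ext (mem_bot.1 (h1 ▸ ⟨?_, d.2⟩))
    exact (QuotientGroup.eq_one_iff _).1 (congrArg Subtype.val hd)
  · obtain ⟨⟨s, hs⟩, hs1⟩ := ne_bot_iff_exists_ne_one.1 h1
    have hs1 : s ≠ 1 := fun h => hs1 (Subtype.ext h)
    have hso : orderOf s = p := orderOf_eq_prime hs.1.2.2 hs1
    have hcs : c * s = s * c := (mem_c.1 hs.2.2).symm
    have hz : zpowers s = D := eq_of_le_of_card_ge (zpowers_le.2 hs.2) (by rw [h, Nat.card_zpowers, hso])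
    obtain ⟨g, -, hg⟩ := hr.cpl (c := c) (s := s) hcs (hso ▸ (hp.out.coprime_iff_not_dvd.2 hc).symm) (k := 2)
      (hso ▸ (Nat.coprime_primes Nat.prime_two hp.out).2 (by omega))
    exact hr.not_line (V := W) h3 (fun a ha b hb => hb.2.1 a ha.1) (fun v hv => hv.2.2) (not_dvd_index_Om S) {c} hs.1 hs1
      (by simpa using hcs) (fun v hv h => hz ▸ ⟨hv.1, mem_c.2 (h c rfl).symm⟩) hg

/-- a prime `p > 3` never divides a centraliser order exactly once -/
theorem RatG.sq_dvd [Group.IsSolvable G] (hr : RatG G) {p : ℕ} [hp : Fact p.Prime] (h3 : 3 < p) (x : G)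
    (h : p ∣ cn x) : p * p ∣ cn x := by
  obtain ⟨S⟩ := (inferInstance : Nonempty (Sylow p G))
  haveI := hr.sylow_normal h3 S
  obtain ⟨⟨k, hk⟩, c, hc, hcom, e⟩ := pex_spec hp.out x
  set s := x ^ pex G p with hs
  set C := centralizer ({c} : Set G)
  have hxC : x ∈ C := mem_c.2 (by rw [← e]; exact (hcom.mul_left (Commute.refl c)).eq)
  have hsC : s ∈ C := mem_c.2 hcom.eq
  have hle : centralizer ({x} : Set G) ≤ C := fun g hg => by
    have h1 : Commute g x := mem_c.1 hg
    have h2 : c = s⁻¹ * x := by rw [← e]; group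
    rw [mem_c, h2]
    exact ((h1.pow_right _).inv_right.mul_right h1).eq
  have h1 : p * p ∣ Nat.card C := by
    have hn := card_ne_aux h3 _ G rfl hr S c hc
    obtain ⟨j, hj⟩ := (S.2.to_le (inf_le_left (b := C))).exists_card_eq
    obtain ⟨y, hy⟩ := exists_prime_orderOf_dvd_card' p (h.trans (card_dvd_of_le hle))
    have hyS : (y : G) ∈ (S : Subgroup G) := by
      have : IsPGroup p (zpowers (y : G)) := IsPGroup.of_card (n := 1) (by simp [Nat.card_zpowers, hy])
      obtain ⟨Q, hQ⟩ := this.exists_le_sylow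
      haveI := S.unique_of_normal inferInstance
      rw [Subsingleton.elim S Q]; exact hQ (mem_zpowers _)
    have h2 : p ∣ p ^ j := by
      have := orderOf_dvd_natCard (⟨y, hyS, y.2⟩ : ((S : Subgroup G) ⊓ C : Subgroup G))
      rwa [← orderOf_coe, orderOf_coe y, hy, hj] at this
    refine dvd_trans ?_ (card_dvd_of_le (inf_le_right (a := (S : Subgroup G))))
    rw [hj] at hn ⊢
    rcases j with _ | _ | j
    · simp at h2; omega
    · simp at hn
    · exact ⟨p ^ j, by ring⟩
  have h2 := sq_dvd_cn hp.out (x := (⟨s, hsC⟩ : C)) ⟨k, by simpa using hk⟩ h1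
  refine h2.trans ?_
  rw [cn, ← card_map_of_injective C.subtype_injective]
  apply card_dvd_of_le
  rintro _ ⟨g, hg, rfl⟩
  have h3 : Commute (g : G) s := congrArg Subtype.val (mem_c.1 hg)
  rw [mem_c, ← e]
  exact (h3.mul_right (mem_c.1 g.2)).eq

end CfsgLib.AH
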