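import Mathlib
import Cfsg.Agent.Lib.AH.Trace

/-! Solvable `{2,3}`-groups with a fixed point free element of order three with small centraliser. -/

set_option autoImplicit false
set_option linter.unusedSectionVars false
set_option linter.style.haveILetI false

namespace CfsgLib.AH

open Subgroup CfsgLib.FewCl CfsgLib.Fgs

theorem quad_ring {R : Type*} [Ring R] {a b : R} (ha : a * a + a + 1 = 0) (hb : b * b + b + 1 = 0)
    (h : a * b = b * b * (a * a)) : 2 * (a * b * a) = 2 * (a * (a * b)) := by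
  have h1 : a * b - (b * a + b + a + 1) = 0 := by
    rw [h, show b * b = -b - 1 by rw [← sub_eq_zero, ← hb]; noncomm_ring,
      show a * a = -a - 1 by rw [← sub_eq_zero, ← ha]; noncomm_ring]
    noncomm_ring
  rw [← sub_eq_zero]
  calc _ = (a * b - (b * a + b + a + 1)) * a - a * (a * b - (b * a + b + a + 1)) + b * (a * a + a + 1)
      - (a * a + a + 1) * b := by noncomm_ring
    _ = 0 := by rw [h1, ha]; simp

variable {B : Type*} [Group B] [Finite B] {V : Type*} [CommGroup V]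

theorem quad (φ : B →* MulAut V) (hφ : Function.Injective φ) (h2 : ∀ v : V, v ^ 2 = 1 → v = 1) {a b : B}
    (ha : a ^ 3 = 1) (hb : b ^ 3 = 1) (fa : ∀ v, φ a v = v → v = 1) (fb : ∀ v, φ b v = v → v = 1)
    (h : (a * b) ^ 2 = 1) : Commute (a * b) a := by
  let ψ : B →* AddMonoid.End (Additive V) :=
    { toFun := fun x => MonoidHom.toAdditive (φ x).toMonoidHom
      map_one' := by rw [map_one]; rfl
      map_mul' := fun x y => by rw [map_mul]; rfl }
  have q : ∀ c : B, c ^ 3 = 1 → (∀ v, φ c v = v → v = 1) → ψ c * ψ c + ψ c + 1 = 0 := fun c hc fc => by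
    refine AddMonoidHom.ext fun v => ?_
    obtain ⟨v, rfl⟩ := Additive.ofMul.surjective v
    refine congrArg Additive.ofMul (fc (φ c (φ c v) * φ c v * v) ?_)
    have : φ c (φ c (φ c v)) = v := by
      rw [← MulAut.mul_apply, ← MulAut.mul_apply, ← map_mul, ← map_mul, ← pow_three', hc, map_one, MulAut.one_apply]
    rw [map_mul, map_mul, this, mul_rotate]
  have e : a * b = b * b * (a * a) := by
    calc a * b = (a * b) ^ 2 * b⁻¹ * a⁻¹ := by rw [pow_two]; group
      _ = b ^ 3 * b⁻¹ * (a ^ 3 * a⁻¹) := by rw [h, ha, hb]; group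
      _ = _ := by rw [pow_three, pow_three]; group
  have := quad_ring (q a ha fa) (q b hb fb) (by rw [← map_mul, e]; simp only [map_mul])
  refine hφ (MulEquiv.ext fun v => ?_)
  have h3 := DFunLike.congr_fun this (Additive.ofMul v)
  rw [two_mul, two_mul] at h3
  have h4 : φ a (φ b (φ a v)) * φ a (φ b (φ a v)) = φ a (φ a (φ b v)) * φ a (φ a (φ b v)) :=
    congrArg Additive.toMul h3
  rw [← div_eq_one]
  apply h2
  simp only [map_mul, MulAut.mul_apply]
  rw [div_pow, pow_two, pow_two, h4, div_self']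

omit [Finite B] in
theorem sq_comm {g y : B} (hg : g * y * g⁻¹ = y⁻¹) : g * g * y = y * (g * g) := by
  calc g * g * y = g * (g * y * g⁻¹) * g := by group
    _ = g * y⁻¹ * g := by rw [hg]
    _ = (g * y * g⁻¹)⁻¹ * (g * g) := by group
    _ = _ := by rw [hg, inv_inv]

theorem mem_z3 {y w : B} (hy : y ^ 3 = 1) (h : w ∈ zpowers y) : w = 1 ∨ w = y ∨ w = y⁻¹ := by
  obtain ⟨k, rfl⟩ := mem_powers_iff_mem_zpowers.2 h
  have : y ^ 2 = y⁻¹ := by rw [eq_inv_iff_mul_eq_one, ← pow_succ, hy]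
  simp only
  rw [pow_eq_pow_mod k hy]
  rcases (show k % 3 = 0 ∨ k % 3 = 1 ∨ k % 3 = 2 by omega) with h | h | h <;> simp [h, this]

theorem conj_of_three (h9 : ¬ 9 ∣ Nat.card B) {y w : B} (hy : orderOf y = 3) (hw : orderOf w = 3) :
    ∃ g : B, g * w * g⁻¹ = y ∨ g * w * g⁻¹ = y⁻¹ := by
  haveI : Fact (Nat.Prime 3) := ⟨Nat.prime_three⟩
  have key : ∀ x : B, orderOf x = 3 → ∃ P : Sylow 3 B, (P : Subgroup B) = zpowers x := fun x hx =>
    ⟨(IsPGroup.of_card (G := zpowers x) (n := 1) (by simp [Nat.card_zpowers, hx])).toSylow fun h => h9 (by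
      rw [← (zpowers x).card_mul_index, Nat.card_zpowers, hx]; exact Nat.mul_dvd_mul_left 3 h), rfl⟩
  obtain ⟨P, hP⟩ := key y hy
  obtain ⟨Q, hQ⟩ := key w hw
  obtain ⟨g, hg⟩ := MulAction.exists_smul_eq B Q P
  have : g * w * g⁻¹ ∈ zpowers y := by
    rw [← hP, ← hg, Sylow.coe_subgroup_smul, hQ]
    exact smul_mem_pointwise_smul _ (MulAut.conj g) _ (mem_zpowers w)
  refine ⟨g, (mem_z3 (hy ▸ pow_orderOf_eq_one y) this).resolve_left fun h => ?_⟩
  rw [conj_eq_one_iff] at h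
  rw [h, orderOf_one] at hw
  omega

/-- the setting -/
structure QS (φ : B →* MulAut V) (y t : B) : Prop where
  sol : Group.IsSolvable B
  pr : ∀ r : ℕ, r.Prime → r ∣ Nat.card B → r = 2 ∨ r = 3
  inj : Function.Injective φ
  two : ∀ v : V, v ^ 2 = 1 → v = 1
  ord : orderOf y = 3
  fpf : ∀ v, φ y v = v → v = 1
  cen : ∀ g, g * t = t * g
  sq : t * t = 1
  cy : ∀ c, c * y = y * c → c ∈ zpowers (t * y)

namespace QS

variable {φ : B →* MulAut V} {y t : B} (h : QS φ y t)
include h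

theorem y3 : y ^ 3 = 1 := h.ord ▸ pow_orderOf_eq_one y

theorem ot : orderOf t ∣ 2 := orderOf_dvd_of_pow_eq_one (by rw [pow_two, h.sq])

theorem cop : (orderOf t).Coprime (orderOf y) := h.ord ▸ Nat.Coprime.coprime_dvd_left h.ot (by norm_num)

theorem cn_dvd' : cn y ∣ orderOf t * 3 := by
  rw [← h.ord, ← (show Commute t y from (h.cen y).symm).orderOf_mul_eq_mul_orderOf_of_coprime h.cop, ← Nat.card_zpowers]
  exact card_dvd_of_le fun c hc => h.cy c (mem_c.1 hc)

theorem n9 : ¬ 9 ∣ Nat.card B := fun h9 => by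
  have := ((sq_dvd_cn Nat.prime_three (x := y) ⟨1, h.ord⟩ h9).trans h.cn_dvd').trans (Nat.mul_dvd_mul_right h.ot 3)
  omega

theorem fpf' {w : B} (hw : orderOf w = 3) (v : V) (hv : φ w v = v) : v = 1 := by
  obtain ⟨g, hg⟩ := conj_of_three h.n9 h.ord hw
  have e : φ (g * w * g⁻¹) (φ g v) = φ g v := by simp [hv]
  refine (map_eq_one_iff _ (φ g).injective).1 (h.fpf _ ?_)
  rcases hg with hg | hg <;> rw [hg] at e
  · exact e
  · conv_lhs => rw [← e]
    simp

theorem tpow (i : ℕ) : t ^ i = 1 ∨ t ^ i = t := by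
  rw [pow_eq_pow_mod i (show t ^ 2 = 1 by rw [pow_two, h.sq])]
  rcases (show i % 2 = 0 ∨ i % 2 = 1 by omega) with e | e <;> simp [e]

theorem two_cen {w c : B} (hw : orderOf w = 3) {k : ℕ} (hc : c ^ 2 ^ k = 1) (e : c * w = w * c) : c = 1 ∨ c = t := by
  obtain ⟨g, hg⟩ := conj_of_three h.n9 h.ord hw
  have e1 : Commute (g * c * g⁻¹) (g * w * g⁻¹) := (show Commute c w from e).map (MulAut.conj g)
  have e2 : Commute (g * c * g⁻¹) y := by
    rcases hg with hg | hg <;> rw [hg] at e1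
    exacts [e1, Commute.inv_right_iff.1 e1]
  obtain ⟨i, hi⟩ := mem_powers_iff_mem_zpowers.2 (h.cy _ e2)
  simp only [(show Commute t y from (h.cen y).symm).mul_pow] at hi
  have := sep (m := 2 ^ (k + 1)) (n := 3) (Nat.Coprime.pow_left _ (by norm_num)) ((show Commute t y from (h.cen y).symm).pow_pow i i)
    (Commute.one_right _) (by rw [← pow_mul, pow_succ, ← mul_assoc, mul_comm, pow_mul, pow_two, h.sq, one_pow])
    (by rw [conj_pow, pow_succ, pow_mul, hc]; simp) (by rw [← pow_mul, mul_comm, pow_mul, h.y3, one_pow]) (one_pow 3)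
    (hi.trans (mul_one _).symm)
  rcases h.tpow i with e3 | e3 <;> rw [e3] at this
  · exact Or.inl (conj_eq_one_iff.1 this.1.symm)
  · refine Or.inr ?_
    calc c = g⁻¹ * (g * c * g⁻¹) * g := by group
      _ = t := by rw [← this.1, h.cen]; group

theorem tJ : t ∈ Cfsg.pCore 2 B := by
  haveI : (zpowers t).Normal := ⟨fun a ha g => by
    obtain ⟨i, rfl⟩ := mem_zpowers_iff.1 ha
    rwa [((show Commute g t from h.cen g).zpow_right i).eq, mul_inv_cancel_right]⟩
  refine Core.le_pCore (N := zpowers t) (fun a => ⟨1, Subtype.ext ?_⟩) (mem_zpowers t)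
  obtain ⟨i, hi⟩ := mem_powers_iff_mem_zpowers.2 a.2
  simp only at hi
  rcases h.tpow i with e | e <;> simp [← hi, e, pow_two, h.sq]

theorem yJ : y ∉ Cfsg.pCore 2 B := fun hy => by
  haveI : Fact (Nat.Prime 2) := ⟨Nat.prime_two⟩
  obtain ⟨k, hk⟩ := orderOf_eq_pow_of_mem_isPGroup (Core.isPGroup_pCore 2 B) hy
  have := (Nat.prime_three.dvd_of_dvd_pow (n := k) (m := 2) (by rw [← hk, h.ord]))
  omega

omit h in
theorem Jpow {j : B} (hj : j ∈ Cfsg.pCore 2 B) : ∃ k, j ^ 2 ^ k = 1 := by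
  obtain ⟨k, hk⟩ := Core.isPGroup_pCore 2 B ⟨j, hj⟩
  exact ⟨k, congrArg Subtype.val hk⟩

theorem invol {i : B} (hi : i ∈ Cfsg.pCore 2 B) (h2 : i * i = 1) : i = 1 ∨ i = t := by
  haveI : Fact (Nat.Prime 2) := ⟨Nat.prime_two⟩
  set J := Cfsg.pCore 2 B
  have e0 : ((i * y : B) : B ⧸ J) = y := by rw [QuotientGroup.mk_mul, (QuotientGroup.eq_one_iff i).2 hi, one_mul]
  have y3 : (y : B ⧸ J) ^ 3 = 1 := by rw [← QuotientGroup.mk_pow, h.y3, QuotientGroup.mk_one]
  obtain ⟨k, hk⟩ := Jpow (j := (i * y) ^ 3) (by rw [← QuotientGroup.eq_one_iff, QuotientGroup.mk_pow, e0, y3])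
  set w := (i * y) ^ (2 ^ k * 2 ^ k) with hw
  have e1 : (w : B ⧸ J) = y := by
    rw [hw, QuotientGroup.mk_pow, e0, pow_eq_pow_of_modEq (b := 1) _ y3, pow_one]
    rw [← mul_pow]
    simpa using (show 2 * 2 ≡ 1 [MOD 3] by decide).pow k
  have w3 : w ^ 3 = 1 := by rw [hw, ← pow_mul, mul_comm, ← mul_assoc, pow_mul, pow_mul, hk, one_pow]
  have ow : orderOf w = 3 := by
    haveI : Fact (Nat.Prime 3) := ⟨Nat.prime_three⟩
    refine orderOf_eq_prime w3 fun e => h.yJ ?_
    rw [← QuotientGroup.eq_one_iff, ← e1, e, QuotientGroup.mk_one]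
  obtain ⟨m, hm⟩ := Jpow (j := i * y * w⁻¹) (by
    rw [← QuotientGroup.eq_one_iff, QuotientGroup.mk_mul, e0, QuotientGroup.mk_inv, e1, mul_inv_cancel])
  have hc : Commute (i * y) w := (Commute.refl _).pow_right _
  have fy : ∀ v, φ y⁻¹ v = v → v = 1 := h.fpf' (by rw [orderOf_inv, h.ord])
  rcases h.two_cen ow hm (hc.mul_left (Commute.refl w).inv_left) with e | e
  · have e2 : w * y⁻¹ = i := by rw [← mul_inv_eq_one.1 e, mul_inv_cancel_right]
    have := quad φ h.inj h.two w3 (b := y⁻¹) (by rw [inv_pow, h.y3, inv_one]) (h.fpf' ow) fy (by rw [e2, pow_two, h2])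
    exact h.two_cen ow (k := 1) (by rw [pow_one, pow_two, h2]) (e2 ▸ this)
  · have e2 : w * y⁻¹ = t * i := by
      calc w * y⁻¹ = t * (t * w) * y⁻¹ := by rw [← mul_assoc t t, h.sq, one_mul]
        _ = _ := by rw [← mul_inv_eq_iff_eq_mul.1 e]; group
    have e3 : (t * i) ^ 2 = 1 := by
      rw [(show Commute t i from (h.cen i).symm).mul_pow, pow_two, pow_two, h.sq, h2, one_mul]
    have := quad φ h.inj h.two w3 (b := y⁻¹) (by rw [inv_pow, h.y3, inv_one]) (h.fpf' ow) fy (by rw [e2, e3])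
    rcases h.two_cen ow (k := 1) e3 (e2 ▸ this) with e4 | e4
    · exact Or.inr (mul_left_cancel (e4.trans h.sq.symm))
    · exact Or.inl (by simpa using e4)

theorem top : (Cfsg.pCore 2 B).index ≤ 6 ∧ ∀ g : B, ((g * y * g⁻¹ : B) : B ⧸ Cfsg.pCore 2 B) = y ∨
    ((g * y * g⁻¹ : B) : B ⧸ Cfsg.pCore 2 B) = y⁻¹ := by
  haveI : Fact (Nat.Prime 3) := ⟨Nat.prime_three⟩
  haveI := h.sol
  set J := Cfsg.pCore 2 B
  have y1 : (y : B ⧸ J) ≠ 1 := fun e => h.yJ ((QuotientGroup.eq_one_iff y).1 e)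
  have y3 : (y : B ⧸ J) ^ 3 = 1 := by rw [← QuotientGroup.mk_pow, h.y3, QuotientGroup.mk_one]
  have oy := orderOf_eq_prime y3 y1
  haveI : Nontrivial (B ⧸ J) := ⟨_, _, y1⟩
  have hc : cn (y : B ⧸ J) ≤ 3 := by
    have := cn_mul_le (QuotientGroup.mk' J) (QuotientGroup.mk'_surjective J) (x := y)
      ((QuotientGroup.eq_one_iff t).2 h.tJ) h.cen h.cop.symm
    have h2 := this.trans (Nat.le_of_dvd (by have := orderOf_pos t; omega) h.cn_dvd')
    rw [mul_comm] at h2
    exact Nat.le_of_mul_le_mul_left h2 (orderOf_pos t)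
  obtain ⟨q, U, hq, hUn, hU1, hU, -⟩ := Core.exists_elementaryAbelian_minimal_normal (B ⧸ J)
  obtain ⟨⟨u, hu⟩, hu1⟩ := ne_bot_iff_exists_ne_one.1 hU1
  have hu1 : u ≠ 1 := fun e => hu1 (Subtype.ext e)
  haveI := Fact.mk hq
  have ou := orderOf_eq_prime (hU.2 u hu) hu1
  have hd : Nat.card (B ⧸ J) ∣ Nat.card B := card_quotient_dvd_card J
  have key : ∀ g : B ⧸ J, g * y * g⁻¹ = y ∨ g * y * g⁻¹ = (y : B ⧸ J)⁻¹ := by
    rcases h.pr q hq ((ou ▸ orderOf_dvd_natCard u).trans hd) with rfl | rfl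
    · have : U ≤ Cfsg.pCore 2 (B ⧸ J) := Core.le_pCore fun g => ⟨1, Subtype.ext (by simpa using hU.2 g g.2)⟩
      rw [Core.pCore_quotient_pCore] at this
      exact absurd (le_bot_iff.1 this) hU1
    · obtain ⟨c, hc'⟩ := conj_of_three (fun h9 => h.n9 (h9.trans hd)) oy ou
      have yU : (y : B ⧸ J) ∈ U := by
        have := hUn.conj_mem u hu c
        rcases hc' with e | e <;> rw [e] at this
        exacts [this, inv_mem_iff.1 this]
      have hz : zpowers (y : B ⧸ J) = centralizer {(y : B ⧸ J)} :=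
        eq_of_le_of_card_ge (zpowers_le.2 (self_mem_cent _)) (by rwa [Nat.card_zpowers, oy])
      intro g
      refine (mem_z3 y3 (hz ▸ mem_c.2 (congrArg Subtype.val
        (hU.1.is_comm.comm (⟨_, hUn.conj_mem _ yU g⟩ : U) ⟨_, yU⟩)))).resolve_left fun e => y1 (conj_eq_one_iff.1 e)
  refine ⟨?_, fun g => key g⟩
  have h1 : (centralizer {(y : B ⧸ J)}).index ≤ 2 := by
    rw [← ncard_isConj_eq_index]
    refine (Set.ncard_le_ncard (t := {(y : B ⧸ J), (y : B ⧸ J)⁻¹}) fun x hx => ?_).trans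
      ((Set.ncard_insert_le _ _).trans (by simp))
    obtain ⟨g, rfl⟩ := isConj_iff.1 hx
    exact key g
  rw [index, ← (centralizer {(y : B ⧸ J)}).card_mul_index]
  exact Nat.mul_le_mul hc h1

omit h in
theorem one (h : QS φ y 1) (g : B) : g ^ 2 = 1 ∨ g ^ 3 = 1 := by
  haveI : Fact (Nat.Prime 2) := ⟨Nat.prime_two⟩
  have hJ : ∀ j ∈ Cfsg.pCore 2 B, j = 1 := fun j hj => by
    by_contra h1
    obtain ⟨k, hk⟩ := Jpow hj
    induction k generalizing j with
    | zero => exact h1 (by simpa using hk)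
    | succ k ih =>
      by_cases h2 : j * j = 1
      · exact h1 (by simpa using h.invol hj h2)
      · exact ih (j * j) (mul_mem hj hj) h2 (by rw [← pow_two, ← pow_mul, ← pow_succ', hk])
  have z3 : ∀ c, c * y = y * c → c ∈ zpowers y := fun c hc => by simpa using h.cy c hc
  rcases h.top.2 g with e | e
  · have := hJ _ (QuotientGroup.eq.1 e)
    rw [inv_mul_eq_one, mul_inv_eq_iff_eq_mul] at this
    rcases mem_z3 h.y3 (z3 g this) with rfl | rfl | rfl <;> simp [h.y3]
  · have := hJ _ (QuotientGroup.eq.1 e)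
    rw [inv_mul_eq_one] at this
    have e2 : g ^ 2 * y = y * g ^ 2 := pow_two g ▸ sq_comm this
    have ne : y ≠ y⁻¹ := fun e => by
      have := orderOf_dvd_of_pow_eq_one (show y ^ 2 = 1 by rw [pow_two]; nth_rw 2 [e]; simp)
      rw [h.ord] at this; omega
    rcases mem_z3 h.y3 (z3 _ e2) with e3 | e3 | e3
    · exact Or.inl e3
    · exact absurd (by rw [← this, ← e3]; group) ne
    · exact absurd (by rw [← this, ← inv_inv y, ← e3]; group) ne

theorem card_le (ht : t ≠ 1) (hr : RatG B) : Nat.card B ≤ 12 := by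
  classical
  haveI : Fact (Nat.Prime 2) := ⟨Nat.prime_two⟩
  set J := Cfsg.pCore 2 B
  set T := zpowers t
  have mT : ∀ x, x ∈ T ↔ x = 1 ∨ x = t := fun x => by
    refine ⟨fun hx => ?_, by rintro (rfl | rfl); exacts [one_mem _, mem_zpowers _]⟩
    obtain ⟨i, rfl⟩ := mem_powers_iff_mem_zpowers.2 hx
    exact h.tpow i
  have cT : ∀ x ∈ T, ∀ g, g * x = x * g := fun x hx g => by
    rcases (mT x).1 hx with rfl | rfl
    exacts [by simp, h.cen g]
  haveI : T.Normal := ⟨fun a ha g => by rwa [cT a ha, mul_inv_cancel_right]⟩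
  have hB := J.card_mul_index
  have h6 : J.index ≤ 6 := h.top.1
  by_cases hJ : J ≤ T
  · have := card_le_of_le hJ
    rw [Nat.card_zpowers, orderOf_eq_prime (p := 2) (by rw [pow_two, h.sq]) ht] at this
    nlinarith
  exfalso
  -- square roots
  have rt : ∀ j ∈ J, j ∉ T → ∃ i, j ^ i ∉ T ∧ j ^ i * j ^ i = t := fun j hj hT => by
    obtain ⟨k, hk⟩ := Jpow hj
    induction k generalizing j with
    | zero => exact absurd (by rw [show j = 1 by simpa using hk]; exact one_mem T) hT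
    | succ k ih =>
      by_cases h2 : j * j ∈ T
      · refine ⟨1, by simpa, by simpa using ((mT _).1 h2).resolve_left fun e => hT ((mT _).2 (h.invol hj e))⟩
      · obtain ⟨i, hi⟩ := ih (j * j) (mul_mem hj hj) h2 (by rw [← pow_two, ← pow_mul, ← pow_succ', hk])
        exact ⟨2 * i, by rwa [pow_mul, pow_two]⟩
  let π := QuotientGroup.mk' T
  have πT : ∀ x, π x = 1 ↔ x ∈ T := fun x => QuotientGroup.eq_one_iff x
  obtain ⟨a, aJ, aT, a2, aZ⟩ : ∃ a ∈ J, a ∉ T ∧ a * a = t ∧ ∀ j ∈ J, Commute (π j) (π a) := by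
    have hn : J.map π ≠ ⊥ := fun e => hJ fun j hj => (πT j).1 (mem_bot.1 (e ▸ mem_map_of_mem π hj))
    obtain ⟨⟨_, ⟨a, aJ, rfl⟩, h1, _⟩, h2⟩ := ne_bot_iff_exists_ne_one.1 (Om_ne_bot ((Core.isPGroup_pCore 2 B).map π) hn)
    obtain ⟨i, h3, h4⟩ := rt a aJ fun e => h2 (Subtype.ext ((πT a).2 e))
    exact ⟨_, pow_mem aJ i, h3, h4, fun j hj => map_pow π a i ▸
      (show Commute (π j) (π a) from h1 _ (mem_map_of_mem π hj)).pow_right i⟩
  have sqt : ∀ j ∈ J, j ∉ T → π j * π j = 1 → j * j = t := fun j hj hT e =>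
    ((mT _).1 ((πT _).1 (by rwa [map_mul]))).resolve_left fun e => hT ((mT _).2 (h.invol hj e))
  have nfix : ∀ w, orderOf w = 3 → π (w * a * w⁻¹) ≠ π a := fun w hw e => by
    obtain ⟨k, hk⟩ := Jpow aJ
    have w3 : w ^ 3 = 1 := hw ▸ pow_orderOf_eq_one w
    rcases (mT _).1 (QuotientGroup.eq.1 e.symm) with e1 | e1
    · exact aT ((mT a).2 (h.two_cen hw hk (by rw [inv_mul_eq_one, eq_mul_inv_iff_mul_eq] at e1; exact e1)))
    · rw [inv_mul_eq_iff_eq_mul] at e1
      have e2 : ∀ n : ℕ, w ^ n * a * (w ^ n)⁻¹ = a * t ^ n := fun n => by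
        induction n with
        | zero => simp
        | succ n ih =>
          calc w ^ (n + 1) * a * (w ^ (n + 1))⁻¹ = w ^ n * (w * a * w⁻¹) * (w ^ n)⁻¹ := by group
            _ = w ^ n * a * (t * (w ^ n)⁻¹) := by rw [e1]; group
            _ = _ := by rw [← h.cen, ← mul_assoc, ih, pow_succ, mul_assoc]
      have := e2 3
      rw [w3, pow_three, h.sq] at this
      exact ht (by simpa using this)
  obtain ⟨b, hb⟩ : ∃ b, b = y * a * y⁻¹ := ⟨_, rfl⟩
  have bJ : b ∈ J := hb ▸ Normal.conj_mem inferInstance a aJ y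
  have bT : b ∉ T := fun e => aT (by simpa [hb, mul_assoc] using Normal.conj_mem inferInstance b e y⁻¹)
  have b2 : b * b = t := by rw [hb, conj_mul, a2, h.cen, mul_inv_cancel_right]
  have bZ : ∀ j ∈ J, Commute (π j) (π b) := fun j hj => by
    have := (aZ _ (Normal.conj_mem inferInstance j hj y⁻¹)).map (MulAut.conj (π y))
    simpa [hb, mul_assoc] using this
  have πa : π a * π a = 1 := by rw [← map_mul, a2, πT]; exact mem_zpowers t
  have πb : π b * π b = 1 := by rw [← map_mul, b2, πT]; exact mem_zpowers t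
  have abT : a * b ∉ T := fun e => nfix y h.ord (by
    rw [← πT, map_mul] at e
    exact hb ▸ mul_left_cancel (e.trans πa.symm))
  have πab : π (a * b) * π (a * b) = 1 := by
    rw [map_mul, mul_assoc, ← mul_assoc (π b), (aZ b bJ).eq, mul_assoc, πb, mul_one, πa]
  have ab2 := sqt _ (mul_mem aJ bJ) abT πab
  have ba : b * a = a * b * t := by
    calc b * a = a⁻¹ * (a * b * (a * b)) * b⁻¹ := by group
      _ = a⁻¹ * (a * a) * ((b * b)⁻¹ * b) := by rw [ab2, a2]; group
      _ = _ := by rw [b2, ← mul_eq_one_iff_eq_inv.1 h.sq, mul_assoc a b, h.cen b]; group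
  have alt : ∀ c, (∀ j ∈ J, Commute (π j) (π c)) → ∀ j ∈ J, j * c = c * j ∨ j * c = c * j * t := fun c hc j hj => by
    have : (c * j)⁻¹ * (j * c) ∈ T := by rw [← πT]; simp [(hc j hj).eq, mul_assoc]
    rcases (mT _).1 this with e | e
    exacts [Or.inl (inv_mul_eq_one.1 e).symm, Or.inr (inv_mul_eq_iff_eq_mul.1 e)]
  have both : ∀ j ∈ J, j * a = a * j → j * b = b * j → j ∈ T := fun j hj h1 h2 => by
    by_contra hT
    obtain ⟨i, h3, h4⟩ := rt j hj hT
    have c1 := (show Commute j a from h1).pow_left i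
    have c2 := (show Commute j b from h2).pow_left i
    have e := (mT _).2 (h.invol (mul_mem (pow_mem hj i) aJ) (by
      rw [← pow_two, c1.mul_pow, pow_two, pow_two, h4, a2, h.sq]))
    have e2 := cT _ e b
    rw [← mul_assoc, ← c2.eq, mul_assoc, mul_assoc, mul_right_inj, ba] at e2
    exact ht (by simpa using e2)
  have ab : a * b = b * a * t := by rw [ba, mul_assoc, h.sq, mul_one]
  have cov : ∀ j ∈ J, ∃ z ∈ T, j = z ∨ j = z * a⁻¹ ∨ j = z * b⁻¹ ∨ j = z * (a * b)⁻¹ := fun j hj => by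
    rcases alt a aZ j hj with h1 | h1 <;> rcases alt b bZ j hj with h2 | h2
    · exact ⟨_, both j hj h1 h2, Or.inl rfl⟩
    · refine ⟨_, both (j * a) (mul_mem hj aJ) (by rw [← mul_assoc, h1]) ?_, by simp⟩
      calc j * a * b = j * b * (a * t) := by rw [mul_assoc, ab]; group
        _ = b * j * (t * t) * a := by rw [h2, h.cen a]; group
        _ = _ := by rw [h.sq]; group
    · refine ⟨_, both (j * b) (mul_mem hj bJ) ?_ (by rw [← mul_assoc, h2]), by simp⟩
      calc j * b * a = j * a * (b * t) := by rw [mul_assoc, ba]; group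
        _ = a * j * (t * t) * b := by rw [h1, h.cen b]; group
        _ = _ := by rw [h.sq]; group
    · refine ⟨_, both (j * (a * b)) (mul_mem hj (mul_mem aJ bJ)) ?_ ?_, by simp [mul_assoc]⟩
      · calc j * (a * b) * a = j * a * (b * a) := by group
          _ = a * j * (t * (a * b * t)) := by rw [h1, ba]; group
          _ = _ := by rw [h.cen (a * b), ← mul_assoc t t, h.sq]; group
      · calc j * (a * b) * b = j * b * (a * t * b) := by rw [ab]; group
          _ = b * j * (t * (a * t) * b) := by rw [h2]; group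
          _ = _ := by rw [h.cen a, ← mul_assoc t t, h.sq]; group
  have J8 : Nat.card J ≤ 8 := by
    let F : Finset B := (({1, t} : Finset B) ×ˢ ({1, a⁻¹, b⁻¹, (a * b)⁻¹} : Finset B)).image fun q => q.1 * q.2
    have : Nat.card J ≤ F.card := by
      rw [← Set.ncard_coe_finset]
      refine Set.ncard_le_ncard (s := (J : Set B)) fun j hj => ?_
      obtain ⟨z, hz, e⟩ := cov j hj
      have hz' : z ∈ ({1, t} : Finset B) := by simpa using (mT z).1 hz
      refine Finset.mem_coe.2 (Finset.mem_image.2 ?_)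
      rcases e with e | e | e | e
      exacts [⟨(z, 1), Finset.mem_product.2 ⟨hz', by simp⟩, by simp [e]⟩,
        ⟨(z, a⁻¹), Finset.mem_product.2 ⟨hz', by simp⟩, e.symm⟩,
        ⟨(z, b⁻¹), Finset.mem_product.2 ⟨hz', by simp⟩, e.symm⟩,
        ⟨(z, (a * b)⁻¹), Finset.mem_product.2 ⟨hz', by simp⟩, e.symm⟩]
    refine this.trans (Finset.card_image_le.trans ?_)
    rw [Finset.card_product]
    exact Nat.mul_le_mul Finset.card_le_two Finset.card_le_four
  have πsq : ∀ j ∈ J, π j * π j = 1 := fun j hj => by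
    obtain ⟨z, hz, e⟩ := cov j hj
    have iv : ∀ x : B ⧸ T, x * x = 1 → x⁻¹ * x⁻¹ = 1 := fun x e => by rw [← mul_inv_rev, e, inv_one]
    rcases e with e | e | e | e <;> simp only [e, map_mul π z, map_inv, (πT _).2 hz, one_mul]
    exacts [iv _ πa, iv _ πb, iv _ πab]
  obtain ⟨g, hg⟩ := isConj_iff.1 (hr.inv y)
  have g2 : g * g ∈ T := by
    have e2 := sq_comm hg
    obtain ⟨i, hi⟩ := mem_powers_iff_mem_zpowers.2 (h.cy _ e2)
    simp only [(show Commute t y from (h.cen y).symm).mul_pow] at hi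
    have e3 : t ^ i * y ^ i = t ^ i * (y ^ i)⁻¹ := by
      calc t ^ i * y ^ i = g * (t ^ i * y ^ i) * g⁻¹ := by rw [hi]; group
        _ = t ^ i * (g * y * g⁻¹) ^ i := by
          rw [conj_pow, ← mul_assoc g, cT _ (pow_mem (mem_zpowers t) i) g]; group
        _ = _ := by rw [hg, inv_pow]
    have e4 : y ^ i = 1 := by
      have e5 := mul_left_cancel e3
      calc y ^ i = (y ^ 3) ^ i * ((y ^ i)⁻¹ * (y ^ i)⁻¹) := by group
        _ = 1 := by rw [h.y3]; nth_rw 1 [← e5]; simp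
    rw [← hi, e4, mul_one]; exact pow_mem (mem_zpowers t) i
  obtain ⟨j, hj, hgj⟩ : ∃ j ∈ J, π (g * j * g⁻¹) ≠ π j := by
    by_contra hcon
    push Not at hcon
    refine nfix (y * y) (by rw [← pow_two, (show (orderOf y).Coprime 2 by rw [h.ord]; norm_num).orderOf_pow, h.ord]) ?_
    have e1 := hcon b bJ
    have e2 := hcon a aJ
    have e3 : π y⁻¹ * π a * π y = π b := by
      rw [← e1, ← e2, ← inv_inv y, ← hg, hb]; simp [mul_assoc]
    calc π (y * y * a * (y * y)⁻¹) = π y * π b * (π y)⁻¹ := by simp [hb, mul_assoc]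
      _ = _ := by rw [← e3]; simp [mul_assoc]
  have xJ : (g * j) ^ 2 ∈ J := by
    rw [show (g * j) ^ 2 = (g * j * g⁻¹) * (g * g) * j by rw [pow_two]; group]
    exact mul_mem (mul_mem (Normal.conj_mem inferInstance j hj g) (zpowers_le.2 h.tJ g2)) hj
  have xT : (g * j) ^ 2 ∉ T := fun e => hgj (by
    rw [← πT, show (g * j) ^ 2 = (g * j * g⁻¹) * (g * g) * j by rw [pow_two]; group, map_mul, map_mul, (πT _).2 g2,
      mul_one] at e
    exact mul_right_cancel (e.trans (πsq j hj).symm))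
  have x4 := sqt _ xJ xT (πsq _ xJ)
  have o8 : orderOf (g * j) = 2 ^ 3 := orderOf_eq_prime_pow (by rw [← x4] at ht; convert ht using 1; group)
    (by rw [← h.sq, ← x4]; group)
  have d1 := hr.dvd (g * j)
  rw [o8] at d1
  have d2 : 3 ∣ Nat.card B := h.ord ▸ orderOf_dvd_natCard y
  have d3 : 96 ∣ Nat.card B := (show Nat.Coprime 32 3 by norm_num).mul_dvd_of_dvd_of_dvd d1 d2
  have := Nat.le_of_dvd Nat.card_pos d3
  nlinarith

end QS

end CfsgLib.AH
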