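import Mathlib
import Cfsg.Agent.Lib.AH.Quad
import Cfsg.Agent.Lib.AH.Num
import Cfsg.Agent.Lib.Ambiv.Basic
import Cfsg.Agent.Lib.PGroup.MaxClass

/-! The `S₃`-conjecture for solvable groups. -/

set_option autoImplicit false
set_option linter.unusedSectionVars false
set_option linter.style.haveILetI false

namespace CfsgLib.AH

open Subgroup CfsgLib.FewCl CfsgLib.Fgs

variable {G : Type*} [Group G] [Finite G] [Group.IsSolvable G]

theorem RatG.idx (hr : RatG G) {p : ℕ} [hp : Fact p.Prime] (h3 : 3 < p) (S : Sylow p G) (r : ℕ) (hr' : r.Prime)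
    (hd : r ∣ (centralizer (Om (S : Subgroup G) p : Set G)).index) : r = 2 ∨ r = 3 := by
  by_contra h
  have h4 : 3 < r := by
    have := hr'.two_le; omega
  haveI := Fact.mk hr'
  have hne : r ≠ p := by rintro rfl; exact not_dvd_index_Om S hd
  obtain ⟨R⟩ := (inferInstance : Nonempty (Sylow r G))
  refine R.not_dvd_index (hd.trans (index_dvd_of_le fun g hg => mem_centralizer_iff.2 fun w hw => ?_))
  exact (commute_of_normal_of_disjoint _ _ (hr.sylow_normal h3 S) (hr.sylow_normal h4 R)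
    (IsPGroup.disjoint_of_ne p r hne.symm _ _ S.2 R.2) w g hw.1 hg).eq

theorem Dist.prim (h : Dist G) {p : ℕ} [hp : Fact p.Prime] (h3 : 3 < p) (S : Sylow p G) (hS : (S : Subgroup G) ≠ ⊥) :
    (p = 5 ∨ p = 7 ∨ p = 17) ∧ p * p - 1 ∣ (centralizer (Om (S : Subgroup G) p : Set G)).index := by
  have hr := h.rat
  haveI := hr.sylow_normal h3 S
  set V := Om (S : Subgroup G) p
  have hc : ∀ a ∈ V, ∀ b ∈ V, a * b = b * a := fun a ha b hb => hb.2.1 a ha.1
  obtain ⟨x, ⟨hx, hx1⟩, hmax⟩ := exists_maximalFor_of_wellFoundedGT (fun v : G => v ∈ V ∧ v ≠ 1)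
    (fun v => centralizer ({v} : Set G)) (by
      obtain ⟨⟨v, hv⟩, h1⟩ := ne_bot_iff_exists_ne_one.1 (Om_ne_bot S.2 hS)
      exact ⟨v, hv, fun e => h1 (Subtype.ext e)⟩)
  set H := centralizer ({x} : Set G) with hH
  set Z : Subgroup G := V ⊓ centralizer (H : Set G) with hZ
  set N := normalizer (H : Set G)
  have xZ : x ∈ Z := ⟨hx, mem_centralizer_iff.2 fun g hg => mem_c.1 hg⟩
  letI : MulAction N G := MulAction.compHom G ((MulAut.conj : G →* MulAut G).comp N.subtype)
  have sm : ∀ (n : N) (g : G), n • g = n * g * (n : G)⁻¹ := fun _ _ => rfl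
  have st : MulAction.stabilizer N x = H.subgroupOf N := by
    ext n; rw [MulAction.mem_stabilizer_iff, sm, mem_subgroupOf, mem_c, mul_inv_eq_iff_eq_mul]
  have ob : MulAction.orbit N x = (Z : Set G) \ {1} := by
    ext z
    constructor
    · rintro ⟨n, rfl⟩
      refine ⟨⟨Normal.conj_mem inferInstance x hx n, mem_centralizer_iff.2 fun g hg => ?_⟩,
        fun e => hx1 (conj_eq_one_iff.1 e)⟩
      have := mem_c.1 ((mem_normalizer_iff''.1 n.2 g).1 hg)
      simp only [sm]
      calc g * (n * x * (n : G)⁻¹) = n * ((n : G)⁻¹ * g * n * x) * (n : G)⁻¹ := by group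
        _ = _ := by rw [this]; group
    · rintro ⟨hz, hz1⟩
      have h1 : H ≤ centralizer {z} := fun g hg => mem_c.2 (mem_centralizer_iff.1 hz.2 g hg)
      have h2 : centralizer {z} = H := le_antisymm (hmax ⟨hz.1, hz1⟩ h1) h1
      obtain ⟨g, hg⟩ := isConj_iff.1 (h x z (by rw [cn, cn, h2]))
      refine ⟨⟨g, mem_normalizer_fintype fun a ha => ?_⟩, hg⟩
      rw [← h2, ← hg]
      exact mem_c.2 ((show Commute a x from mem_c.1 ha).map (MulAut.conj g)).eq
  obtain ⟨m, hm⟩ := (S.2.to_le (show Z ≤ S from fun z hz => hz.1.1)).exists_card_eq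
  have e1 : H.relIndex N = p ^ m - 1 := by
    rw [relIndex, ← st, MulAction.index_stabilizer, ob, Set.ncard_sdiff_singleton_of_mem (one_mem Z), ← hm]; rfl
  have e2 : p ^ m - 1 ∣ (centralizer (V : Set G)).index := by
    rw [← e1]
    refine (relIndex_dvd_index_of_le le_normalizer).trans (index_dvd_of_le fun g hg => mem_c.2 ?_)
    exact (mem_centralizer_iff.1 hg x hx).symm
  have ox : orderOf x = p := orderOf_eq_prime hx.2.2 hx1
  have hm2 : 2 ≤ m := by
    have := orderOf_dvd_natCard (⟨x, xZ⟩ : Z)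
    rw [← orderOf_coe, hm] at this
    rcases m with _ | _ | m
    · simp [ox] at this; omega
    · exfalso
      have hz : zpowers x = Z := eq_of_le_of_card_ge (zpowers_le.2 xZ) (by rw [hm, Nat.card_zpowers, ox]; simp)
      obtain ⟨g, hg⟩ := isConj_iff.1 (hr x 2 (ox ▸ (Nat.coprime_primes Nat.prime_two hp.out).2 (by omega)))
      exact hr.not_line h3 hc (fun v hv => hv.2.2) (not_dvd_index_Om S) H hx hx1 (fun g hg => mem_c.1 hg)
        (fun v hv e => hz ▸ ⟨hv, mem_centralizer_iff.2 e⟩) hg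
    · omega
  have := nt hp.out h3 hm2 fun r hr' hd => hr.idx h3 S r hr' (hd.trans e2)
  exact ⟨this.1, this.2.trans e2⟩

theorem six_split {x : G} (hx : cn x = 6) (h1 : x ≠ 1) :
    ∃ t y : G, orderOf t = 2 ∧ orderOf y = 3 ∧ Commute t y ∧ cn (t * y) ≤ 6 := by
  haveI : Fact (Nat.Prime 2) := ⟨Nat.prime_two⟩
  haveI : Fact (Nat.Prime 3) := ⟨Nat.prime_three⟩
  obtain ⟨a, ha⟩ := exists_prime_orderOf_dvd_card' (G := centralizer ({x} : Set G)) 2 (by rw [← cn, hx]; norm_num)
  obtain ⟨b, hb⟩ := exists_prime_orderOf_dvd_card' (G := centralizer ({x} : Set G)) 3 (by rw [← cn, hx]; norm_num)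
  rw [← orderOf_coe] at ha hb
  have hd := hx ▸ ord_dvd_cn x
  have := Nat.le_of_dvd (by norm_num) hd
  have h0 := orderOf_pos x
  have h1' : orderOf x ≠ 1 := by simpa using h1
  rcases (show orderOf x = 2 ∨ orderOf x = 3 ∨ orderOf x = 6 by
    generalize orderOf x = n at *; interval_cases n <;> omega) with e | e | e
  · have hc : Commute x b := (mem_c.1 b.2).symm
    exact ⟨x, b, e, hb, hc, hx ▸ card_le_of_le (cent_le_cent_of_mem_zpowers
      (left_mem_zpowers_mul_of_coprime hc (by rw [e, hb]; norm_num)))⟩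
  · have hc : Commute (a : G) x := mem_c.1 a.2
    exact ⟨a, x, ha, e, hc, hx ▸ card_le_of_le (cent_le_cent_of_mem_zpowers
      (right_mem_zpowers_mul_of_coprime hc (by rw [e, ha]; norm_num)))⟩
  · refine ⟨x ^ 3, x ^ 4, by rw [orderOf_pow, e]; norm_num, by rw [orderOf_pow, e]; norm_num,
      (Commute.refl x).pow_pow 3 4, ?_⟩
    rw [← pow_add, show 3 + 4 = 6 + 1 from rfl, pow_succ, show x ^ 6 = 1 from e ▸ pow_orderOf_eq_one x, one_mul, hx]

omit [Group.IsSolvable G] in
theorem cn_loc {t y : G} (h : y ∈ centralizer ({t} : Set G)) :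
    cn (⟨y, h⟩ : centralizer ({t} : Set G)) ≤ cn (t * y) := by
  rw [cn, ← card_map_of_injective (centralizer ({t} : Set G)).subtype_injective]
  apply card_le_of_le
  rintro _ ⟨g, hg, rfl⟩
  exact mem_c.2 ((show Commute (g : G) t from mem_c.1 g.2).mul_right (congrArg Subtype.val (mem_c.1 hg))).eq

omit [Group.IsSolvable G] in
theorem cent_eq {x : G} {n : ℕ} (ho : orderOf x = n) (h : cn x ≤ n) (c : G) (hc : c * x = x * c) : c ∈ zpowers x := by
  rw [eq_of_le_of_card_ge (zpowers_le.2 (self_mem_cent x)) (by rwa [Nat.card_zpowers, ho])]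
  exact mem_c.2 hc

omit [Group.IsSolvable G] [Finite G] in
theorem conj_iter {g s : G} {k : ℕ} (h : g * s * g⁻¹ = s ^ k) (n : ℕ) : g ^ n * s * (g ^ n)⁻¹ = s ^ k ^ n := by
  induction n with
  | zero => simp
  | succ n ih =>
    calc g ^ (n + 1) * s * (g ^ (n + 1))⁻¹ = g * (g ^ n * s * (g ^ n)⁻¹) * g⁻¹ := by group
      _ = _ := by rw [ih, ← conj_pow, h, ← pow_mul, pow_succ']

omit [Group.IsSolvable G] in
theorem loc_pow {V : Subgroup G} [V.Normal] {B : Subgroup G} {g s : G} (hg : g ∈ B) (hs : s ∈ V) (hsB : s ∈ B) {k n : ℕ}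
    (hk : 1 ≤ k) (h : g * s * g⁻¹ = s ^ k) (e : ac (V.subgroupOf B) ⟨g, hg⟩ ^ n = 1) : orderOf s ∣ k ^ n - 1 := by
  rw [← map_pow, ac_eq_one] at e
  have e1 : s * g ^ n = g ^ n * s := congrArg Subtype.val (mem_centralizer_iff.1 e ⟨s, hsB⟩ hs)
  have := conj_iter h n
  rw [← e1, mul_inv_cancel_right] at this
  apply orderOf_dvd_of_pow_eq_one
  rw [← mul_left_inj s, ← pow_succ, Nat.sub_add_cancel (Nat.one_le_pow _ _ hk), one_mul, ← this]

theorem Dist.ne_six (h : Dist G) {p : ℕ} [hp : Fact p.Prime] (h3 : 3 < p) (hd : p ∣ Nat.card G) (x : G) : cn x ≠ 6 := by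
  intro hx
  haveI : Fact (Nat.Prime 2) := ⟨Nat.prime_two⟩
  haveI : Fact (Nat.Prime 3) := ⟨Nat.prime_three⟩
  have hr := h.rat
  obtain ⟨S⟩ := (inferInstance : Nonempty (Sylow p G))
  haveI := hr.sylow_normal h3 S
  have hS : (S : Subgroup G) ≠ ⊥ := fun e => S.not_dvd_index (by rwa [e, index_bot])
  obtain ⟨hp', hI⟩ := h.prim h3 S hS
  set V := Om (S : Subgroup G) p
  have hc : ∀ a ∈ V, ∀ b ∈ V, a * b = b * a := fun a ha b hb => hb.2.1 a ha.1
  have ov : ∀ v ∈ V, v ≠ 1 → orderOf v = p := fun v hv h1 => orderOf_eq_prime hv.2.2 h1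
  have v2 : ∀ v ∈ V, v ^ 2 = 1 → v = 1 := fun v hv e => by
    by_contra h1
    have := Nat.le_of_dvd two_pos (ov v hv h1 ▸ orderOf_dvd_of_pow_eq_one e); omega
  obtain ⟨t, y, ot, oy, hty, h6⟩ := six_split hx (by
    rintro rfl
    rw [cn_one] at hx
    rw [hx] at hd
    rcases hp' with rfl | rfl | rfl <;> omega)
  have tt : t * t = 1 := by rw [← pow_two, ← ot, pow_orderOf_eq_one]
  have oty : orderOf (t * y) = 6 := by rw [hty.orderOf_mul_eq_mul_orderOf_of_coprime (by rw [ot, oy]; norm_num), ot, oy]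
  have nt : ∀ v ∈ V, t * (v * (t * v * t⁻¹)) = v * (t * v * t⁻¹) * t := fun v hv => by
    calc t * (v * (t * v * t⁻¹)) = t * v * t⁻¹ * (t * t * v * (t * t)⁻¹) * t := by group
      _ = _ := by rw [tt, one_mul, inv_one, mul_one, hc _ (Normal.conj_mem inferInstance v hv t) v hv]
  have F1 : ∀ s ∈ V, y * s = s * y → s = 1 := fun s hs e => by
    by_contra hs1
    set B := centralizer ({y} : Set G)
    have tB : t ∈ B := mem_c.2 hty.eq
    let f := ac (V.subgroupOf B)
    have inv : ∀ v ∈ V, v ∈ B → t * v * t⁻¹ = v⁻¹ := fun v hv hB => by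
      have h1 := mul_mem hv (Normal.conj_mem (inferInstance : V.Normal) v hv t)
      have h2 := cent_eq oty h6 (v * (t * v * t⁻¹)) (Commute.mul_right (nt v hv).symm
        (mem_c.1 (mul_mem hB (mul_mem (mul_mem tB hB) (inv_mem tB))))).eq
      rw [eq_inv_iff_mul_eq_one, hc _ (Normal.conj_mem inferInstance v hv t) v hv]
      by_contra h4
      have := orderOf_dvd_natCard (⟨_, h2⟩ : zpowers (t * y))
      rw [← orderOf_coe, ov _ h1 h4, Nat.card_zpowers, oty] at this
      rcases hp' with rfl | rfl | rfl <;> omega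
    have h1 := cn_mul_le f (ac_surj _) (x := ⟨t, tB⟩) (y := ⟨y, self_mem_cent y⟩)
      (ac_eq_one.2 (mem_centralizer_iff.2 fun v _ => Subtype.ext (mem_c.1 v.2))) (fun g => Subtype.ext (mem_c.1 g.2))
      (by rw [← orderOf_coe, ← orderOf_coe, ot, oy]; norm_num)
    have h2 := cn_loc tB
    rw [← orderOf_coe, oy] at h1
    rw [hty.symm.eq] at h2
    have h4 : centralizer {f ⟨t, tB⟩} = ⊤ := eq_top_iff.2 fun σ _ => mem_c.2 (by
      obtain ⟨g, rfl⟩ := ac_surj _ σ
      refine Subtype.ext (MulEquiv.ext fun v => Subtype.ext (Subtype.ext ?_))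
      change (g : G) * (t * v * t⁻¹) * (g : G)⁻¹ = t * (g * v * (g : G)⁻¹) * t⁻¹
      have hv : ((v : B) : G) ∈ V := v.2
      rw [inv _ hv v.1.2, inv _ (Normal.conj_mem inferInstance _ hv _) (mul_mem (mul_mem g.2 v.1.2) (inv_mem g.2))]
      group)
    rw [cn, h4, card_top] at h1
    obtain ⟨g, hg1, hg⟩ := hr.cpl (c := y) (s := s) e (by rw [oy, ov s hs hs1]; rcases hp' with rfl | rfl | rfl <;> norm_num)
      (k := 2) (by rw [ov s hs hs1]; rcases hp' with rfl | rfl | rfl <;> norm_num)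
    have gB : g ∈ B := mem_c.2 (mul_inv_eq_iff_eq_mul.1 hg1)
    have := loc_pow gB hs (mem_c.2 e.symm) (n := 2) (by norm_num) hg (by
      have a1 := orderOf_dvd_natCard (f ⟨g, gB⟩)
      have a2 := Nat.le_of_dvd Nat.card_pos a1
      have a3 := orderOf_pos (f ⟨g, gB⟩)
      exact orderOf_dvd_iff_pow_eq_one.1 (by
        rcases (show orderOf (f ⟨g, gB⟩) = 1 ∨ orderOf (f ⟨g, gB⟩) = 2 by omega) with e | e <;> simp only [f] at e <;>
          rw [e] <;> norm_num))
    rw [ov s hs hs1] at this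
    rcases hp' with rfl | rfl | rfl <;> omega
  have F2 : ∀ s ∈ V, t * s = s * t → s = 1 := fun s hs e => by
    by_contra hs1
    set B := centralizer ({t} : Set G)
    have yB : y ∈ B := mem_c.2 hty.symm.eq
    have sB : s ∈ B := mem_c.2 e.symm
    set W := V.subgroupOf B
    let f := ac W
    let _ : CommGroup W := { (inferInstance : Group _) with
      mul_comm := fun a b => Subtype.ext (Subtype.ext (hc _ a.2 _ b.2)) }
    have fp : ∀ v : W, (f ⟨y, yB⟩).1 v = v → v = 1 := fun v e => Subtype.ext (Subtype.ext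
      (F1 _ v.2 (mul_inv_eq_iff_eq_mul.1 (congrArg (fun a : W => ((a : B) : G)) e))))
    have o3 : orderOf (f ⟨y, yB⟩) = 3 := orderOf_eq_prime (by
      rw [← map_pow, show (⟨y, yB⟩ : B) ^ 3 = 1 from Subtype.ext (oy ▸ pow_orderOf_eq_one y), map_one])
      fun e => hs1 (congrArg (fun a : W => ((a : B) : G)) (fp ⟨⟨s, sB⟩, hs⟩ (by rw [e]; rfl)))
    have h1 := cn_mul_le f (ac_surj _) (x := ⟨y, yB⟩) (y := ⟨t, self_mem_cent t⟩)
      (ac_eq_one.2 (mem_centralizer_iff.2 fun v _ => Subtype.ext (mem_c.1 v.2))) (fun g => Subtype.ext (mem_c.1 g.2))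
      (by rw [← orderOf_coe, ← orderOf_coe, ot, oy]; norm_num)
    have h2 := cn_loc yB
    rw [← orderOf_coe, ot] at h1
    have Q : QS (Subgroup.subtype _) (f ⟨y, yB⟩) 1 :=
      { sol := Group.isSolvable_of_surjective (ac_surj W)
        pr := fun r hr' hd => hr.idx h3 S r hr' (by
          rw [card_ac] at hd
          refine (hd.trans (index_dvd_of_le (H := (centralizer (V : Set G)).subgroupOf B) fun g hg => ?_)).trans
            (relIndex_dvd_index_of_normal _ B)
          exact mem_centralizer_iff.2 fun v hv => Subtype.ext (mem_centralizer_iff.1 hg _ hv))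
        inj := subtype_injective _
        two := fun v e => Subtype.ext (Subtype.ext (v2 _ v.2 (congrArg (fun a : W => ((a : B) : G)) e)))
        ord := o3
        fpf := fp
        cen := by simp
        sq := by simp
        cy := fun c hc => by simpa using cent_eq o3 (by omega) c hc }
    obtain ⟨g, hg1, hg⟩ := hr.cpl (c := t) (s := s) e (by rw [ot, ov s hs hs1]; rcases hp' with rfl | rfl | rfl <;> norm_num)
      (k := 3) (by rw [ov s hs hs1]; rcases hp' with rfl | rfl | rfl <;> norm_num)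
    have gB : g ∈ B := mem_c.2 (mul_inv_eq_iff_eq_mul.1 hg1)
    rcases Q.one (f ⟨g, gB⟩) with e | e <;> have := loc_pow gB hs sB (by norm_num) hg e <;> rw [ov s hs hs1] at this <;>
      rcases hp' with rfl | rfl | rfl <;> omega
  have inv : ∀ v ∈ V, t * v * t⁻¹ = v⁻¹ := fun v hv => by
    rw [eq_inv_iff_mul_eq_one, hc _ (Normal.conj_mem inferInstance v hv t) v hv]
    exact F2 _ (mul_mem hv (Normal.conj_mem (inferInstance : V.Normal) v hv t)) (nt v hv)
  let _ : CommGroup V := { (inferInstance : Group _) with mul_comm := fun a b => Subtype.ext (hc _ a.2 _ b.2) }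
  obtain ⟨s, hs1⟩ := ne_bot_iff_exists_ne_one.1 (Om_ne_bot S.2 hS)
  have fp : ∀ v : V, (ac V y).1 v = v → v = 1 := fun v e =>
    Subtype.ext (F1 _ v.2 (mul_inv_eq_iff_eq_mul.1 (congrArg Subtype.val e)))
  have o3 : orderOf (ac V y) = 3 := orderOf_eq_prime (by rw [← map_pow, ← oy, pow_orderOf_eq_one, map_one])
    fun e => hs1 (fp s (by rw [e]; rfl))
  have t1 : ac V t ≠ 1 := fun e => hs1 (Subtype.ext (F2 _ s.2 (mem_centralizer_iff.1 (ac_eq_one.1 e) _ s.2).symm))
  have o2 : orderOf (ac V t) = 2 := orderOf_eq_prime (by rw [← map_pow, pow_two, tt, map_one]) t1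
  have cen : ∀ σ, σ * ac V t = ac V t * σ := fun σ => by
    obtain ⟨g, rfl⟩ := ac_surj _ σ
    refine Subtype.ext (MulEquiv.ext fun v => Subtype.ext ?_)
    change g * (t * v * t⁻¹) * g⁻¹ = t * (g * v * g⁻¹) * t⁻¹
    rw [inv _ v.2, inv _ (Normal.conj_mem inferInstance _ v.2 _)]
    group
  have Q : QS (Subgroup.subtype _) (ac V y) (ac V t) :=
    { sol := Group.isSolvable_of_surjective (ac_surj V)
      pr := fun r hr' hd => hr.idx h3 S r hr' (by rwa [card_ac] at hd)
      inj := subtype_injective _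
      two := fun v e => Subtype.ext (v2 _ v.2 (congrArg Subtype.val e))
      ord := o3
      fpf := fp
      cen := cen
      sq := by rw [← map_mul, tt, map_one]
      cy := fun c hc => cent_eq (n := 6) (by
        rw [(hty.map (ac V)).orderOf_mul_eq_mul_orderOf_of_coprime (by rw [o2, o3]; norm_num), o2, o3])
        (by rw [← map_mul]; exact (cn_le _ (ac_surj V) _).trans h6) c
        ((show Commute c (ac V t) from cen c).mul_right hc).eq }
  have := Q.card_le t1 (hr.of_surj _ (ac_surj V))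
  rw [card_ac] at this
  have := (Nat.le_of_dvd (Nat.pos_of_ne_zero index_ne_zero_of_finite) hI).trans this
  rcases hp' with rfl | rfl | rfl <;> omega

theorem Dist.two (h : Dist G) [Nontrivial G] {t : G} (ht : cn t = 2) : Nonempty (G ≃* Equiv.Perm (Fin 3)) := by
  haveI : Fact (Nat.Prime 2) := ⟨Nat.prime_two⟩
  have t1 : t ≠ 1 := by
    rintro rfl
    obtain ⟨g, hg⟩ := exists_ne (1 : G)
    rw [cn_one] at ht
    have h1 := ord_dvd_cn g
    rcases (Nat.dvd_prime Nat.prime_two).1 (ht ▸ cn_dvd g) with e | e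
    · rw [e, Nat.dvd_one, orderOf_eq_one_iff] at h1; exact hg h1
    · exact h.cn_ne hg (e.trans ht.symm)
  have ot : orderOf t = 2 := ((Nat.dvd_prime Nat.prime_two).1 (ht ▸ ord_dvd_cn t)).resolve_left (by simpa using t1)
  have h4 : ¬ 2 * 2 ∣ Nat.card G := fun e => by have := sq_dvd_cn Nat.prime_two (x := t) ⟨1, ot⟩ e; omega
  obtain ⟨S, hS⟩ := exists_sylow_mem (x := t) (p := 2) ⟨1, ot⟩
  have cS : Nat.card S = 2 := by
    obtain ⟨k, hk⟩ := S.2.exists_card_eq
    have h1 := orderOf_dvd_natCard (⟨t, hS⟩ : (S : Subgroup G))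
    have h2 := card_subgroup_dvd_card (S : Subgroup G)
    rw [← orderOf_coe, ot] at h1
    rw [hk] at h1 h2 ⊢
    rcases k with _ | _ | k
    · simp at h1
    · rfl
    · exact absurd (Dvd.dvd.trans ⟨2 ^ k, by ring⟩ h2) h4
  obtain ⟨hc, -, hi⟩ := Ambiv.part2 h.rat.inv S cS
  set O := Cfsg.oddCore G
  have cG : 2 * Nat.card O = Nat.card G := cS ▸ hc.card_mul_card
  have Oi : O.index = 2 := by
    have := O.card_mul_index
    rw [← cG, mul_comm] at this
    exact Nat.eq_of_mul_eq_mul_right Nat.card_pos this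
  have idx : ∀ a ∈ O, a ≠ 1 → (centralizer {a}).index = 2 := fun a ha a1 => by
    have : O ≤ centralizer {a} := fun b hb => mem_c.2 (by
      have := hi t hS t1 _ (mul_mem hb ha)
      rw [← conj_mul, hi t hS t1 a ha, hi t hS t1 b hb, ← mul_inv_rev, inv_inj] at this
      exact this.symm)
    refine ((Nat.dvd_prime Nat.prime_two).1 (Oi ▸ index_dvd_of_le this)).resolve_left fun e => h.cn_ne a1 ?_
    rw [cn, index_eq_one.1 e, card_top]
  obtain ⟨⟨a, ha⟩, a1⟩ := ne_bot_iff_exists_ne_one.1 (show O ≠ ⊥ from fun e => h.cn_ne t1 (by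
    rw [e, card_bot] at cG; rw [ht, ← cG]))
  have a1 : a ≠ 1 := fun e => a1 (Subtype.ext e)
  have h3 : ((O : Set G) \ {1}).ncard ≤ 2 := by
    rw [← idx a ha a1, ← ncard_isConj_eq_index]
    refine Set.ncard_le_ncard fun b hb => h _ _ ?_
    have e1 := (centralizer {a}).card_mul_index
    have e2 := (centralizer {b}).card_mul_index
    rw [idx a ha a1] at e1
    rw [idx b hb.1 hb.2] at e2
    simp only [cn]
    omega
  rw [Set.ncard_sdiff_singleton_of_mem (one_mem O)] at h3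
  have h5 : Nat.card O ≠ 1 := fun e => a1 (mem_bot.1 (card_eq_one.1 e ▸ ha))
  have h6 : (O : Set G).ncard = Nat.card O := rfl
  have h7 : 0 < Nat.card O := Nat.card_pos
  refine Ambiv.perm3 (by omega) cS fun hn => h.cn_ne t1 ?_
  have hz : zpowers t = S := eq_of_le_of_card_ge (zpowers_le.2 hS) (by rw [Nat.card_zpowers, ot]; exact cS.le)
  rw [cn, show centralizer {t} = ⊤ from eq_top_iff.2 fun g _ => mem_c.2 ?_, card_top]
  obtain ⟨i, hi⟩ := mem_powers_iff_mem_zpowers.2 (hz ▸ hn.conj_mem t hS g)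
  simp only [pow_eq_pow_mod i (ot ▸ pow_orderOf_eq_one t)] at hi
  rcases (show i % 2 = 0 ∨ i % 2 = 1 by omega) with e | e <;> rw [e] at hi
  · exact absurd (conj_eq_one_iff.1 (hi.symm.trans (pow_zero t))) t1
  · exact mul_inv_eq_iff_eq_mul.1 (hi.symm.trans (pow_one t))

theorem Dist.three (h : Dist G) [Nontrivial G] {y : G} (hy : cn y = 3) :
    6 ∣ Nat.card G ∧ ∀ x : G, 3 ∣ cn x → cn x = 3 ∨ cn x = Nat.card G := by
  haveI : Fact (Nat.Prime 3) := ⟨Nat.prime_three⟩
  have y1 : y ≠ 1 := by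
    rintro rfl
    obtain ⟨g, hg⟩ := exists_ne (1 : G)
    rw [cn_one] at hy
    have h1 := ord_dvd_cn g
    rcases (Nat.dvd_prime Nat.prime_three).1 (hy ▸ cn_dvd g) with e | e
    · rw [e, Nat.dvd_one, orderOf_eq_one_iff] at h1; exact hg h1
    · exact h.cn_ne hg (e.trans hy.symm)
  have oy : orderOf y = 3 := ((Nat.dvd_prime Nat.prime_three).1 (hy ▸ ord_dvd_cn y)).resolve_left (by simpa using y1)
  have h9 : ¬ 9 ∣ Nat.card G := fun e => by have := sq_dvd_cn Nat.prime_three (x := y) ⟨1, oy⟩ e; omega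
  refine ⟨by simpa [oy, Nat.totient_prime Nat.prime_three] using h.rat.dvd y, fun x hx => ?_⟩
  obtain ⟨w, hw⟩ := exists_prime_orderOf_dvd_card' (G := centralizer ({x} : Set G)) 3 hx
  rw [← orderOf_coe] at hw
  obtain ⟨g, hg⟩ := conj_of_three h9 oy hw
  have e1 : Commute (g * x * g⁻¹) (g * w * g⁻¹) := (show Commute x w from (mem_c.1 w.2).symm).map (MulAut.conj g)
  have e2 : Commute (g * x * g⁻¹) y := by
    rcases hg with hg | hg <;> rw [hg] at e1
    exacts [e1, Commute.inv_right_iff.1 e1]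
  rw [cn_conj (isConj_iff.2 ⟨g, rfl⟩ : IsConj x (g * x * g⁻¹))]
  rcases mem_z3 (oy ▸ pow_orderOf_eq_one y) (cent_eq oy hy.le _ e2) with e | e | e <;> rw [e]
  exacts [Or.inr cn_one, Or.inl hy, Or.inl ((cn_conj (h.rat.inv y)).symm.trans hy)]

theorem RatG.four (h : RatG G) {x : G} (hx : cn x = 4) : ¬ 16 ∣ Nat.card G := by
  haveI : Fact (Nat.Prime 2) := ⟨Nat.prime_two⟩
  intro h16
  obtain ⟨j, -, hj⟩ := (Nat.dvd_prime_pow Nat.prime_two (m := 2)).1 (show orderOf x ∣ 4 from hx ▸ ord_dvd_cn x)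
  obtain ⟨S, hS⟩ := exists_sylow_mem (x := x) (p := 2) ⟨j, hj⟩
  have hk := S.card_eq_multiplicity
  set k := (Nat.card G).factorization 2
  have hk4 : 4 ≤ k := (Nat.prime_two.pow_dvd_iff_le_factorization Nat.card_pos.ne').1 h16
  have h1 := PGroup.maximal_class_of_card_centralizer_le (G := (S : Subgroup G)) (p := 2) (by omega) hk (x := ⟨x, hS⟩)
    (Nat.le_of_dvd (by norm_num) (by simpa [hx] using cn_sub_dvd (S : Subgroup G) ⟨x, hS⟩))
  obtain ⟨a, -, -, ha, -⟩ := PGroup.exists_gens_of_index_commutator_eq_four (by omega) hk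
    (PGroup.index_commutator_of_maximal_class (by omega) hk h1)
  have h2 := h.dvd (a : G)
  rw [orderOf_coe, ha, Nat.totient_prime_pow Nat.prime_two (by omega), Nat.add_one_sub_one, mul_one, ← pow_add] at h2
  have := (Nat.prime_two.pow_dvd_iff_le_factorization Nat.card_pos.ne').1 h2
  omega

theorem Dist.main (h : Dist G) [Nontrivial G] : Nonempty (G ≃* Equiv.Perm (Fin 3)) := by
  by_contra hcon
  have hr := h.rat
  have n2 : ∀ x : G, cn x ≠ 2 := fun x e => hcon (h.two e)
  have n1 : ∀ x : G, cn x ≠ 1 := fun x e => by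
    have h1 := ord_dvd_cn x
    rw [e, Nat.dvd_one, orderOf_eq_one_iff] at h1
    rw [h1, cn_one] at e
    exact Finite.one_lt_card.ne' e
  have pr : ∀ p : ℕ, p.Prime → 3 < p → p ∣ Nat.card G → (p = 5 ∨ p = 7 ∨ p = 17) ∧ p * p - 1 ∣ Nat.card G :=
    fun p hp h3 hd => by
    haveI := Fact.mk hp
    obtain ⟨S⟩ := (inferInstance : Nonempty (Sylow p G))
    have := h.prim h3 S fun e => S.not_dvd_index (by rwa [e, index_bot])
    exact ⟨this.1, this.2.trans (index_dvd_card _)⟩
  have sm : ∀ x : G, Sm (cn x) := fun x => ⟨(cn_pos x).ne', fun r hr' hd => by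
    haveI := Fact.mk hr'
    by_cases h3 : 3 < r
    · exact Or.inr (Or.inr ⟨(pr r hr' h3 (hd.trans (cn_dvd x))).1, hr.sq_dvd h3 x hd⟩)
    · have := hr'.two_le; omega⟩
  obtain ⟨N, hN, hs⟩ := h.mass
  have fin : ∀ {X : Set ℕ} {α : ℚ}, Bd X α → α < 1 → (∀ x : G, cn x ∈ X) → False := fun hX hα hx => by
    have := hX N fun n hn => by obtain ⟨x, rfl⟩ := (hN n).1 hn; exact hx x
    linarith
  have iv : ∀ m : ℕ, 0 < m → m ≤ Nat.card G → (1 : ℚ) / (Nat.card G : ℕ) ≤ 1 / m := fun m h0 hm =>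
    one_div_le_one_div_of_le (by exact_mod_cast h0) (by exact_mod_cast hm)
  by_cases hT : ∃ p : ℕ, p.Prime ∧ 3 < p ∧ p ∣ Nat.card G
  · obtain ⟨p, hp, h3, hd⟩ := hT
    haveI := Fact.mk hp
    have n6 := h.ne_six h3 hd
    by_cases e3 : ∃ y : G, cn y = 3
    · obtain ⟨y, hy⟩ := e3
      obtain ⟨h6, h7⟩ := h.three hy
      have h8 := hr.sq_dvd h3 (1 : G) (by rwa [cn_one])
      rw [cn_one] at h8
      have h9 : 150 ≤ Nat.card G := by
        have := Nat.card_pos (α := G)
        rcases (pr p hp h3 hd).1 with rfl | rfl | rfl <;> omega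
      refine fin ((bd4.ins 3).ins (Nat.card G)) (by have := iv 150 (by norm_num) h9; norm_num at this ⊢; linarith) fun x => ?_
      by_cases e : 3 ∣ cn x
      · rcases h7 x e with e | e <;> simp [e]
      · exact Or.inr (Or.inr ⟨sm x, e, n1 x, n2 x⟩)
    push Not at e3
    by_cases e4 : ∃ x : G, cn x = 4
    · obtain ⟨x, hx⟩ := e4
      have h16 := hr.four hx
      refine fin bd5 (by norm_num) fun x => ⟨sm x, fun e => ?_, fun e => ?_, fun e => h16 (e.trans (cn_dvd x)), n1 x, n2 x,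
        e3 x, n6 x⟩
      · have := (pr 7 (by norm_num) (by norm_num) (e.trans (cn_dvd x))).2; omega
      · have := (pr 17 (by norm_num) (by norm_num) (e.trans (cn_dvd x))).2; omega
    push Not at e4
    exact fin bd6 (by norm_num) fun x => ⟨sm x, n1 x, n2 x, e3 x, e4 x, n6 x⟩
  push Not at hT
  have n5 : ∀ x : G, ¬ 5 ∣ cn x := fun x e => hT 5 (by norm_num) (by norm_num) (e.trans (cn_dvd x))
  have n7 : ∀ x : G, ¬ 7 ∣ cn x := fun x e => hT 7 (by norm_num) (by norm_num) (e.trans (cn_dvd x))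
  have n17 : ∀ x : G, ¬ 17 ∣ cn x := fun x e => hT 17 (by norm_num) (by norm_num) (e.trans (cn_dvd x))
  by_cases e3 : ∃ y : G, cn y = 3
  · obtain ⟨y, hy⟩ := e3
    obtain ⟨h6, h7⟩ := h.three hy
    have h9 : 12 ≤ Nat.card G := by
      haveI : Fact (Nat.Prime 2) := ⟨Nat.prime_two⟩
      obtain ⟨t, ht⟩ := exists_prime_orderOf_dvd_card' (G := G) 2 (by omega)
      have a1 := ht ▸ ord_dvd_cn t
      have a2 := cn_dvd t
      have a3 := h.cn_ne (x := t) (by rintro rfl; simp at ht)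
      have a4 := n2 t
      have a5 := Nat.card_pos (α := G)
      by_contra a6
      have a7 : Nat.card G = 6 := by omega
      rw [a7] at a2 a3
      have := Nat.le_of_dvd (by norm_num) a2
      have := cn_pos t
      generalize cn t = n at *
      interval_cases n <;> omega
    refine fin ((bd3.ins 3).ins (Nat.card G)) (by have := iv 12 (by norm_num) h9; norm_num at this ⊢; linarith) fun x => ?_
    by_cases e : 3 ∣ cn x
    · rcases h7 x e with e | e <;> simp [e]
    · exact Or.inr (Or.inr ⟨sm x, n5 x, n7 x, n17 x, e, n1 x, n2 x⟩)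
  push Not at e3
  by_cases e4 : ∃ x : G, cn x = 4
  · obtain ⟨x, hx⟩ := e4
    exact fin bd2 (by norm_num) fun x => ⟨sm x, n5 x, n7 x, n17 x, fun e => hr.four hx (e.trans (cn_dvd x)), n1 x, n2 x, e3 x⟩
  push Not at e4
  exact fin bd1 (by norm_num) fun x => ⟨sm x, n5 x, n7 x, n17 x, n1 x, n2 x, e3 x, e4 x⟩

end CfsgLib.AH
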